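import Cfsg.Agent.OD.Pre
import Cfsg.Agent.H6.WP
set_option autoImplicit false
set_option maxRecDepth 100000
set_option Elab.async false
set_option linter.all false
namespace CfH6.Ly3B
open CfH6 MulAction
def il : List ℕ := [0, 2, 1, 4, 3, 6, 5, 8, 7, 10, 9, 12, 11, 14, 13, 15]
def rels : List (List ℕ) := [[1, 1, 1],
  [3, 3, 3],
  [5, 5, 5],
  [7, 7, 7],
  [9, 9, 9],
  [11, 11, 11],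
  [1, 3, 1, 3, 1, 3, 1, 3],
  [5, 1, 5, 4, 2, 4],
  [7, 1, 7, 4, 2, 4],
  [9, 1, 9, 4, 2, 4],
  [11, 1, 11, 4, 2, 4],
  [3, 5, 3, 5, 4, 2, 4, 2],
  [3, 7, 3, 7, 4, 2, 4, 2],
  [3, 9, 3, 9, 4, 2, 4, 2],
  [3, 11, 3, 11, 4, 2, 4, 2],
  [5, 7, 5, 7, 4, 2, 4, 2],
  [5, 9, 5, 9, 4, 2, 4, 2],
  [5, 11, 5, 11, 4, 2, 4, 2],
  [7, 9, 7, 9, 4, 2, 4, 2],
  [7, 11, 7, 11, 4, 2, 4, 2],
  [9, 11, 9, 11, 4, 2, 4, 2],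
  [8, 4, 2, 4, 2, 7, 1, 3, 1, 3],
  [10, 4, 2, 4, 2, 9, 1, 3, 1, 3],
  [13, 13, 13],
  [1, 13, 2, 14],
  [3, 13, 4, 14],
  [5, 13, 6, 14],
  [7, 13, 8, 14],
  [9, 13, 10, 14],
  [11, 13, 12, 14],
  [0, 13, 0, 14],
  [0, 9, 3, 12, 6, 0, 5, 11, 2, 8, 14],
  [0, 11, 5, 2, 8, 0, 11, 5, 2, 8, 14],
  [0, 11, 5, 8, 2, 0, 1, 7, 10, 4, 14],
  [0, 11, 5, 10, 4, 0, 11, 5, 10, 4, 13],
  [0, 3, 9, 0, 3, 9, 0, 3, 9],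
  [0, 1, 5, 8, 4, 0, 1, 5, 8, 4, 0, 1, 5, 8, 4],
  [0, 5, 1, 12, 10, 0, 5, 1, 12, 10, 0, 5, 1, 12, 10],
  [15, 7, 15, 7],
  [15, 9, 15, 9],
  [15, 11, 15, 11],
  [15, 1, 3, 5, 4, 2, 15, 14],
  [15, 1, 3, 5, 9, 11, 3, 5, 8, 1, 15, 1, 3, 5, 9, 11, 3, 5, 8, 1, 15, 1, 3, 5, 9, 11, 3, 5, 8, 1],
  [15, 0, 2, 8, 1, 7, 5, 9, 3, 11, 1, 7, 7, 1, 0, 15, 1, 7, 3, 9, 1, 7, 0, 2, 8, 8, 2, 12, 4, 10, 6, 8, 2, 7, 1, 0, 8, 2, 10, 4, 8, 2, 0, 2, 8, 8, 2, 12, 4, 10, 6, 8, 2, 7, 1, 0]]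
abbrev G : Type := WP 16 il rels
def el : ℕ → G := wel 16 il rels
theorem hinv : ∀ x < 16, el (il.getD x 0) = (el x)⁻¹ := wp_inv _ _ _
theorem hrel : ∀ r ∈ rels, evw el r = 1 := wp_rel _ _ _
theorem htop : gensub el 16 = ⊤ := wp_top _ _ _
theorem hhom {Γ : Type*} [Group Γ] (ev : ℕ → Γ) (h1 : ∀ x < 16, ev (il.getD x 0) = (ev x)⁻¹) (h2 : ∀ r ∈ rels, evw ev r = 1) :
    ∃ ρ : G →* Γ, ∀ x < 16, ρ (el x) = ev x := wp_hom _ _ _ (by decide +kernel) ev h1 h2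
end CfH6.Ly3B
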