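import Cfsg.Agent.OD.Pre
import Cfsg.Agent.H6.LyM.D
/-! An element of order 37 of the Lyons group. -/
set_option autoImplicit false
set_option maxRecDepth 100000
set_option Elab.async false
set_option linter.all false
namespace CfH6.LyE
open CfH6
theorem w : ∀ r ∈ [wpow [0, 4, 7, 10] (37 ^ 1)], evw (evU LyM.sem LyM.ms LyB.il) r = 1 := LyM.U.rels (by decide +kernel)
end CfH6.LyE
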