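import Cfsg.Agent.OD.Pre
import Cfsg.Agent.H6.G25A
import Cfsg.Agent.H6.G25K
import Cfsg.Agent.H6.G25O
import Cfsg.Agent.H6.G25O
/-! An abstract presentation: order and simplicity. -/
set_option autoImplicit false
set_option maxRecDepth 100000
namespace CfH6.G25G
open CfH6 MulAction
attribute [local instance] G25A.act

theorem stab : G25A.H = stabilizer G25B.G 0 ∧ G25A.H.index = 3906 := G25A.stab G25O.covT0

theorem card : Nat.card G25B.G = 5859000000 := (G25A.top G25O.finG).1

theorem base : ∀ g : G25B.G, (∀ b ∈ G25A.bs, g • b = b) → g = 1 := (G25A.top G25O.finG).2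

theorem simple : IsSimpleGroup G25B.G := by
  have := G25O.finG.1
  refine simple_of stab.1 (by rw [stab.2]; decide) (G25A.hmax stab.1 stab.2) base G25A.hbs fun M hM h => ?_
  exact top_of_index (eq_top_of_collapse G25B.el (n := 4) G25B.hinv G25B.hrel G25B.htop M
    (pow_words G25B.el h (by norm_num) (not_dvd_card card stab.2 (by decide)) 1 G25A.ex (G25A.hex base))
    (by decide +kernel) 1 fun ev' h1 h2 => G25K.covers ev' ⊥ h1 h2 forall_nil)

theorem nprime : ¬ (Nat.card G25B.G).Prime := by rw [card]; norm_num

end CfH6.G25G
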