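import Cfsg.Agent.OD.Pre
import Cfsg.Agent.H6.LyM.R0
import Cfsg.Agent.H6.LyM.R1
import Cfsg.Agent.H6.LyM.R2
import Cfsg.Agent.H6.LyM.R3
import Cfsg.Agent.H6.LyM.R4
import Cfsg.Agent.H6.LyM.R5
set_option autoImplicit false
set_option maxRecDepth 100000
set_option Elab.async false
set_option linter.all false
namespace CfH6.LyM
open CfH6
theorem ex : ∃ φ : LyB.G →* Mtˣ, ∀ x < 11, φ (LyB.el x) = evU sem ms LyB.il x := LyB.hhom _ U.inv (forall_split _ 12 r0 (forall_split _ 12 r1 (forall_split _ 12 r2 (forall_split _ 12 r3 (forall_split _ 3 r4 (r5))))))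
noncomputable def φ : LyB.G →* Mtˣ := Classical.choose ex
theorem hφ : ∀ x < 11, φ (LyB.el x) = evU sem ms LyB.il x := Classical.choose_spec ex
theorem range : φ.range = gensub (evU sem ms LyB.il) 11 := range_hom hφ LyB.htop
end CfH6.LyM
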