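import Cfsg.Agent.OD.Pre
import Cfsg.Agent.H6.G25G
import Cfsg.Agent.H6.LyM
/-! The subgroup `G₂(5)` of the presented Lyons group. -/
set_option autoImplicit false
set_option maxRecDepth 100000
namespace CfH6.LyN
open CfH6 Cfsg.Spor

def s9 : List (List ℕ) := [[0], [1], [2], [3], [4], [5], [6], [7], [8]]
noncomputable abbrev H : Subgroup LyB.G := gensub (byW LyB.el s9) 9

theorem ex : ∃ ρ : G25B.G →* LyB.G, ∀ x < 9, ρ (G25B.el x) = byW LyB.el s9 x :=
  G25B.hhom _ (byW_inv LyB.el (n := 4) LyB.hinv LyB.hrel (by decide +kernel))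
    (byW_rels LyB.el (n := 4) LyB.hinv LyB.hrel (by decide +kernel))
noncomputable def ρ : G25B.G →* LyB.G := Classical.choose ex
theorem hρ : ∀ x < 9, ρ (G25B.el x) = byW LyB.el s9 x := Classical.choose_spec ex
theorem range : ρ.range = H := range_hom hρ G25B.htop

theorem inj : Function.Injective ρ :=
  have := G25G.simple
  inj_of_simple ρ (g := G25B.el 0) fun hc => by
    have h1 : byW LyB.el s9 0 = LyB.el 0 := mul_one _
    have := LyM.U.val 0 (by decide)
    rw [← LyM.hφ 0 (by decide), ← h1, ← hρ 0 (by decide), hc, map_one] at this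
    exact absurd (congrFun (congrFun this 0) 0) (by decide +kernel)

theorem cardH : Nat.card H = 5859000000 := by
  rw [← range, ← G25G.card]
  exact (Nat.card_congr (MonoidHom.ofInjective inj).toEquiv).symm

theorem sub_eq : (Subgroup.closure ({Ly.a, Ly.b, Ly.c, Ly.d} : Set (FreeGroup Ly.Gen))).map
    (PresentedGroup.mk (coxRelators Ly.edges ∪ {r | r ∈ Ly.extra})) = H := by
  rw [map_closure_eq _ LyB0.el LyB0.hinv LyB0.tr LyB0.hmk _ [Ly.a, Ly.b, Ly.c, Ly.d] (ws := [[0], [2], [4], [6]]) (k := 4)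
    (by intro r; simp) (by decide) (by decide +kernel)]
  have e : ∀ x < 8, byW LyB.el s9 x = LyB0.el x := fun x hx => by
    have h1 : ∀ x < 8, subst LyB.σ (s9.getD x []) = [x] := by decide
    rw [byW, LyB.el, ← evw_subst, h1 x hx, evw_cons, evw_nil, mul_one]
  set K := gensub (byW LyB0.el [[0], [2], [4], [6]]) 4
  have m : ∀ x < 8, byW LyB.el s9 x ∈ K := fun x hx => by
    have m0 : ∀ y < 4, LyB0.el (2 * y) ∈ K := fun y hy => by
      have h1 : ∀ y < 4, ([[0], [2], [4], [6]] : List (List ℕ)).getD y [] = [2 * y] := by decide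
      have := mem_gensub (el := byW LyB0.el [[0], [2], [4], [6]]) hy
      rwa [byW, h1 y hy, evw_cons, evw_nil, mul_one] at this
    have h2 : ∀ x < 8, x = 2 * (x / 2) ∨ x = LyB0.il.getD (2 * (x / 2)) 0 := by decide
    rw [e x hx]
    rcases h2 x hx with h | h
    · rw [h]; exact m0 _ (by omega)
    · rw [h, LyB0.hinv _ (by omega)]; exact K.inv_mem (m0 _ (by omega))
  apply le_antisymm
  · refine gensub_le fun y hy => ?_
    have h1 : ∀ y < 4, ([[0], [2], [4], [6]] : List (List ℕ)).getD y [] = [2 * y] := by decide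
    rw [byW, h1 y hy, evw_cons, evw_nil, mul_one, ← e _ (by omega)]
    exact mem_gensub (by omega)
  · refine gensub_le fun y hy => ?_
    rcases Nat.lt_succ_iff_lt_or_eq.mp hy with h | rfl
    · exact m y h
    · have h1 := byW_rels LyB.el (n := 4) (σ := s9) LyB.hinv LyB.hrel
        (rels' := [[8, 7, 5, 7, 2, 1, 3, 5, 7, 1, 5, 0, 5, 1, 4, 0, 2, 2]]) (by decide +kernel) _ List.mem_cons_self
      rw [evw_cons, mul_eq_one_iff_eq_inv] at h1
      rw [h1]
      exact K.inv_mem (evw_mem m (by decide))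

end CfH6.LyN
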