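import Cfsg.Agent.OD.Pre
import Cfsg.Agent.H6.LyN
import Cfsg.Agent.H6.LyC
import Cfsg.Agent.H6.LyK
import Cfsg.Agent.H6.LyW
import Cfsg.Agent.H6.LyE
import Cfsg.Agent.H6.Big2
import Cfsg.Agent.H6.LyS.p2
import Cfsg.Agent.H6.LyS.p3
import Cfsg.Agent.H6.LyS.p5
import Cfsg.Agent.H6.LyS.p7
import Cfsg.Agent.H6.LyS.p11
import Cfsg.Agent.H6.LyS.p31
import Cfsg.Agent.H6.LyS.p37
import Cfsg.Agent.H6.LyS.p67
/-! The presented Lyons group: order and simplicity. -/
set_option autoImplicit false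
set_option maxRecDepth 100000
set_option Elab.async false
set_option linter.all false
namespace CfH6.LyG
open CfH6

theorem hex : ∀ w ∈ LyB.rels ++ LyC.ex, evw LyB.el w = 1 := forall_app LyB.hrel (follows_sound (n := 4) LyB.el LyB.hinv
  (subst_rels LyB.el (n := 4) LyB.hinv LyB.hrel [[0], [1], [2], [3], [4], [5], [6], [7], [8], [0, 0, 10], [10]]
    (LyB.rels.map (invw LyB.il) ++ LyB.rels) (by decide +kernel)) (by decide +kernel))
theorem hg : ∀ w ∈ LyC.gws, evw LyB.el w = 1 := follows_sound (n := 4) LyB.el LyB.hinv hex (by decide +kernel)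
theorem hw : ∀ w ∈ LyC.bws, evw LyB.el w = 1 := follows_sound (n := 4) LyB.el LyB.hinv hex (by decide +kernel)
theorem hH (n : G25B.G) : LyN.ρ n ∈ LyN.H := LyN.range ▸ MonoidHom.mem_range.mpr ⟨n, rfl⟩
noncomputable abbrev C := LyC.C LyB.el LyN.ρ LyN.hρ LyN.H hH hg (LyC.hbp LyB.el LyN.ρ LyN.hρ (LyB.hinv 9 (by decide)) hw)
theorem hK : C.K = ⊤ := C.K_top (σ := LyN.s9) (nc := 9) (fun x hx => (congrArg LyN.ρ (G25D.cdx x hx)).trans (LyN.hρ x hx))
  rfl (LyB.hinv 9 (by decide)) LyB.htop (by decide)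
theorem cov : Covers LyN.H ⊤ 8835156 := hK ▸ LyC.covers _ _ _ _ _ _ _
theorem hmax : ∀ L : Subgroup LyB.G, LyN.H ≤ L → L = LyN.H ∨ L = ⊤ := LyC.hmax _ _ _ _ _ _ _ hK
theorem finH : Finite LyN.H ∧ Nat.card LyN.H ≤ 5859000000 := LyN.range ▸ card_range_le _ G25O.finG
theorem finG : Finite LyB.G ∧ Nat.card LyB.G ≤ 51765179004000000 := fin_top (fin_cast (cov.card_le finH) (by decide))
theorem big : Nat.card LyB.G = 51765179004000000 ∧ Function.Injective LyM.φ := inj_of_dvd _ finG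
  (dvd_cons LyS.p2 (dvd_cons LyS.p3 (dvd_cons LyS.p5 (dvd_cons LyS.p7 (dvd_cons LyS.p11 (dvd_cons LyS.p31
    (dvd_cons LyS.p37 LyS.p67 (by decide)) (by decide)) (by decide)) (by decide)) (by decide)) (by decide)) (by decide))
theorem index : LyN.H.index = 8835156 := (index_of_card cov finH big.1 (by decide)).1

theorem simple : IsSimpleGroup LyB.G := by
  have := finG.1
  have := nontriv_of_card big.1
  refine simple_max _ hmax (fun M hM h => ?_) fun M hM h => ?_
  · refine (normal_in_range LyN.ρ (w := G25B.el 8) (fun L hL => (G25G.simple.eq_bot_or_eq_top_of_normal L hL).imp id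
      fun e : L = ⊤ => e ▸ Subgroup.mem_top _) M (LyN.range ▸ h)).imp id fun h1 => ?_
    exact top_of_index (eq_top_of_collapse LyB.el (n := 4) (ex := [[8]]) LyB.hinv LyB.hrel LyB.htop M
      (forall_cons (by rwa [LyN.hρ 8 (by decide)] at h1) forall_nil) (by decide +kernel) 1 fun ev' h1 h2 => LyK.covers ev' ⊥ h1 h2 forall_nil)
  · exact top_of_index (eq_top_of_collapse LyB.el (n := 4) LyB.hinv LyB.hrel LyB.htop M
      (pow_words LyB.el h (by norm_num) (not_dvd_card big.1 index (by decide)) 1 [[0, 4, 7, 10]]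
        (forall_cons (rel_of_inj _ big.2 LyM.hφ (by decide +kernel) LyE.w) forall_nil))
      (by decide +kernel) 1 fun ev' h1 h2 => LyW.covers ev' ⊥ h1 h2 forall_nil)
end CfH6.LyG
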