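import Cfsg.Agent.OD.Pre
import Cfsg.Agent.H6.Ly3M.R0
import Cfsg.Agent.H6.Ly3M.R1
import Cfsg.Agent.H6.Ly3M.R2
import Cfsg.Agent.H6.Ly3M.R3
import Cfsg.Agent.H6.Ly3M.R4
import Cfsg.Agent.H6.Ly3M.R5
set_option autoImplicit false
set_option maxRecDepth 100000
set_option Elab.async false
set_option linter.all false
namespace CfH6.Ly3M
open CfH6
theorem ex : ∃ φ : Ly3B.G →* Mtˣ, ∀ x < 16, φ (Ly3B.el x) = evU sem ms Ly3B.il x := Ly3B.hhom _ U.inv (forall_split _ 14 r0 (forall_split _ 10 r1 (forall_split _ 11 r2 (forall_split _ 7 r3 (forall_split _ 1 r4 (r5))))))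
noncomputable def φ : Ly3B.G →* Mtˣ := Classical.choose ex
theorem hφ : ∀ x < 16, φ (Ly3B.el x) = evU sem ms Ly3B.il x := Classical.choose_spec ex
theorem range : φ.range = gensub (evU sem ms Ly3B.il) 16 := range_hom hφ Ly3B.htop
end CfH6.Ly3M
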