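import Cfsg.Agent.OD.Pre
import Cfsg.Agent.H6.Ly3M.D
import Cfsg.Agent.H6.LyM.D
/-! The generators of Sims as words in the generators over `3.McL`. -/
set_option autoImplicit false
set_option maxRecDepth 100000
set_option Elab.async false
set_option linter.all false
namespace CfH6.Ly3W
open CfH6
theorem wa : evw (evU Ly3M.sem Ly3M.ms Ly3B.il) [1, 3, 1, 3, 1, 11, 9, 7, 1, 3] = evU LyM.sem LyM.ms LyB.il 0 :=
  Units.ext ((Ly3M.U.word (Y := lget LyM.ms 0 0) (by decide +kernel)).trans (LyM.U.val 0 (by decide)).symm)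
theorem wb : evw (evU Ly3M.sem Ly3M.ms Ly3B.il) [1, 3, 1, 3, 1, 10, 15, 4, 15, 6] = evU LyM.sem LyM.ms LyB.il 2 :=
  Units.ext ((Ly3M.U.word (Y := lget LyM.ms 0 2) (by decide +kernel)).trans (LyM.U.val 2 (by decide)).symm)
theorem wc : evw (evU Ly3M.sem Ly3M.ms Ly3B.il) [3, 1, 12, 0, 1, 11, 15, 1, 3, 8, 15, 5, 3, 10, 1, 0, 7, 1, 0, 9, 11, 1, 5, 7, 4, 15, 2, 9, 4, 15, 0, 1, 3, 1, 3, 1, 3, 15, 2, 11, 15, 1] = evU LyM.sem LyM.ms LyB.il 4 :=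
  Units.ext ((Ly3M.U.word (Y := lget LyM.ms 0 4) (by decide +kernel)).trans (LyM.U.val 4 (by decide)).symm)
theorem wd : evw (evU Ly3M.sem Ly3M.ms Ly3B.il) [8, 15, 1, 6, 1, 15] = evU LyM.sem LyM.ms LyB.il 6 :=
  Units.ext ((Ly3M.U.word (Y := lget LyM.ms 0 6) (by decide +kernel)).trans (LyM.U.val 6 (by decide)).symm)
theorem wz : evw (evU Ly3M.sem Ly3M.ms Ly3B.il) [12, 7, 4, 15, 3, 6, 3, 15] = evU LyM.sem LyM.ms LyB.il 9 :=
  Units.ext ((Ly3M.U.word (Y := lget LyM.ms 0 9) (by decide +kernel)).trans (LyM.U.val 9 (by decide)).symm)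
end CfH6.Ly3W
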