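import Cfsg.Agent.OD.Pre
import Cfsg.Agent.H6.Ly3C
import Cfsg.Agent.H6.Ly3M
import Cfsg.Agent.H6.Ly3W
import Cfsg.Agent.H6.LyG
/-! The amalgam presentation over `3.McL` defines the Lyons group. -/
set_option autoImplicit false
set_option maxRecDepth 100000
set_option Elab.async false
set_option linter.all false
namespace CfH6.Ly3G
open CfH6

theorem ex : ∃ ρ : Mc3B.G →* Ly3B.G, ∀ x < 15, ρ (Mc3B.el x) = byW Ly3B.el Ly3C.σ x :=
  Mc3B.hhom _ (byW_inv Ly3B.el (n := 4) Ly3B.hinv Ly3B.hrel (by decide +kernel))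
    (byW_rels Ly3B.el (n := 4) Ly3B.hinv Ly3B.hrel (by decide +kernel))
noncomputable def ρ : Mc3B.G →* Ly3B.G := Classical.choose ex
theorem hρ : ∀ x < 15, ρ (Mc3B.el x) = byW Ly3B.el Ly3C.σ x := Classical.choose_spec ex
theorem hg : ∀ w ∈ Ly3C.gws, evw Ly3B.el w = 1 := follows_sound (n := 4) Ly3B.el Ly3B.hinv Ly3B.hrel (by decide +kernel)
theorem hw : ∀ w ∈ Ly3C.bws, evw Ly3B.el w = 1 := follows_sound (n := 4) Ly3B.el Ly3B.hinv Ly3B.hrel (by decide +kernel)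
theorem hH (n : Mc3B.G) : ρ n ∈ ρ.range := MonoidHom.mem_range.mpr ⟨n, rfl⟩
noncomputable abbrev C := Ly3C.C Ly3B.el ρ hρ ρ.range hH hg (Ly3C.hbp Ly3B.el ρ hρ (Ly3B.hinv 15 (by decide)) hw)
theorem hK : C.K = ⊤ := C.K_top (σ := Ly3C.σ) (nc := 15) (fun x hx => (congrArg ρ (Mc3D.cdx x hx)).trans (hρ x hx))
  rfl (Ly3B.hinv 15 (by decide)) Ly3B.htop (by decide)
theorem cov : Covers ρ.range ⊤ 19212250 := hK ▸ Ly3C.covers _ _ _ _ _ _ _
theorem finG : Finite Ly3B.G ∧ Nat.card Ly3B.G ≤ 51765179004000000 :=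
  fin_top (fin_cast (cov.card_le (card_range_le _ Mc3O.finG)) (by decide))

theorem le : LyM.φ.range ≤ Ly3M.φ.range := by
  have m : ∀ w : List ℕ, allLt 16 w = true → evw (evU Ly3M.sem Ly3M.ms Ly3B.il) w ∈ Ly3M.φ.range := fun w hw => by
    rw [Ly3M.range]
    exact evw_mem (fun x hx => mem_gensub hx) (allLt_sound hw)
  set K := Ly3M.φ.range.comap LyM.φ
  have k : ∀ x < 11, evU LyM.sem LyM.ms LyB.il x ∈ Ly3M.φ.range → LyB.el x ∈ K := fun x hx h => by
    rw [← LyM.hφ x hx] at h; exact h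
  have h0 := k 0 (by decide) (Ly3W.wa ▸ m _ (by decide))
  have h2 := k 2 (by decide) (Ly3W.wb ▸ m _ (by decide))
  have h4 := k 4 (by decide) (Ly3W.wc ▸ m _ (by decide))
  have h6 := k 6 (by decide) (Ly3W.wd ▸ m _ (by decide))
  have h9 := k 9 (by decide) (Ly3W.wz ▸ m _ (by decide))
  have h1 : LyB.el 1 ∈ K := (LyB.hinv 0 (by decide)).symm ▸ K.inv_mem h0
  have h3 : LyB.el 3 ∈ K := (LyB.hinv 2 (by decide)).symm ▸ K.inv_mem h2
  have h5 : LyB.el 5 ∈ K := (LyB.hinv 4 (by decide)).symm ▸ K.inv_mem h4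
  have h7 : LyB.el 7 ∈ K := (LyB.hinv 6 (by decide)).symm ▸ K.inv_mem h6
  have h10 : LyB.el 10 ∈ K := (LyB.hinv 9 (by decide)).symm ▸ K.inv_mem h9
  have h8 : LyB.el 8 ∈ K := by
    have e := LyB.hrel [8, 7, 5, 7, 2, 1, 3, 5, 7, 1, 5, 0, 5, 1, 4, 0, 2, 2] (by decide +kernel)
    rw [evw_cons, mul_eq_one_iff_eq_inv] at e
    rw [e]
    refine K.inv_mem (evw_mem (k := 8) (fun x hx => ?_) (by decide))
    interval_cases x <;> assumption
  have : K = ⊤ := top_le_iff.mp (LyB.htop.ge.trans (gensub_le fun x hx => by interval_cases x <;> assumption))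
  rintro _ ⟨g, rfl⟩
  exact this.ge (Subgroup.mem_top g)

theorem cardR : Nat.card LyM.φ.range = 51765179004000000 :=
  (Nat.card_congr (MonoidHom.ofInjective LyG.big.2).toEquiv).symm.trans LyG.big.1
theorem big : Nat.card Ly3B.G = 51765179004000000 ∧ Function.Injective Ly3M.φ :=
  inj_of_dvd _ finG (cardR ▸ Subgroup.card_dvd_of_le le)
theorem range : LyM.φ.range = Ly3M.φ.range := by
  have := finG.1
  have : Finite Ly3M.φ.range := Finite.of_surjective _ Ly3M.φ.rangeRestrict_surjective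
  refine Subgroup.eq_of_le_of_card_ge le ?_
  rw [cardR, ← big.1]
  exact (Nat.card_congr (MonoidHom.ofInjective big.2).toEquiv).ge
theorem iso : Nonempty (Ly3B.G ≃* LyB.G) :=
  ⟨(MonoidHom.ofInjective big.2).trans ((MulEquiv.subgroupCongr range.symm).trans (MonoidHom.ofInjective LyG.big.2).symm)⟩
end CfH6.Ly3G
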