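import Cfsg.Agent.OD.Pre
import Cfsg.Agent.H6.HiB
import Cfsg.Agent.H6.HiA.P0
set_option autoImplicit false
set_option maxRecDepth 100000
set_option Elab.async false
set_option linter.all false
namespace CfH6.HiA
open CfH6 MulAction
theorem eq0 : ∀ e ∈ eqs0, evw (lp nets0) e.1 = evw (lp nets0) e.2 :=
  EqsOk.sound (e0_0) ok0 (by decide)
theorem eqAll : ∀ e ∈ eqs, evw (lp nets0) e.1 = evw (lp nets0) e.2 := eq0
theorem hsd : (∀ x < 6, lp nets0 (HiB.il.getD x 0) = (lp nets0 x)⁻¹) ∧ ∀ r ∈ eqRels HiB.il sig eqs, evw (lp nets0) r = 1 :=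
  eqRels_sound (lp nets0) (k := 6) (by decide +kernel) eqAll
theorem exRho : ∃ ρ : HiB.G →* Equiv.Perm ℕ, ∀ x < 6, ρ (HiB.el x) = lp nets0 x :=
  HiB.hhom _ hsd.1 (follows_sound (n := 4) _ hsd.1 hsd.2 (by decide +kernel))
noncomputable def rho : HiB.G →* Equiv.Perm ℕ := Classical.choose exRho
@[reducible] noncomputable def act : MulAction HiB.G ℕ := MulAction.compHom ℕ rho
attribute [local instance] act
theorem L0 : Lvl 192 nets0 6 HiB.el := lvl0 rho ok0 (Classical.choose_spec exRho)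
noncomputable abbrev el1 : ℕ → HiB.G := byW HiB.el ws1
theorem L1 : Lvl 192 nets1 2 el1 := L0.next sx1 (x1_0)
noncomputable abbrev el2 : ℕ → HiB.G := byW el1 ws2
theorem L2 : Lvl 16 nets2 2 el2 := L1.next sx2 (x2_0)
noncomputable abbrev el3 : ℕ → HiB.G := byW el2 ws3
theorem L3 : Lvl 8 nets3 2 el3 := L2.next sx3 (x3_0)
noncomputable abbrev el4 : ℕ → HiB.G := byW el3 ws4
theorem L4 : Lvl 8 nets4 2 el4 := L3.next sx4 (x4_0)
noncomputable abbrev el5 : ℕ → HiB.G := byW el4 ws5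
theorem L5 : Lvl 8 nets5 2 el5 := L4.next sx5 (x5_0)
noncomputable abbrev el6 : ℕ → HiB.G := byW el5 ws6
theorem L6 : Lvl 8 nets6 1 el6 := L5.next sx6 (x6_0)
noncomputable abbrev H : Subgroup HiB.G := gensub el1 2
theorem fix0 : H ≤ stabilizer HiB.G 0 := L1.fix' 0 (by decide +kernel)
theorem cU : (bitSet U).ncard = 176 := ncard_ivls lU _ (by decide +kernel)
theorem oi1 : OrbIn (gensub el1 2) 1 192 S1 :=
  (L1.orbStep (OrbIn.one _ (by decide)) 22 S1 oi1_0)
theorem o1 : orbit H 1 = bitSet S1 := L1.orbEq oi1 ci1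
theorem c1 : (bitSet S1).ncard = 175 := ncard_ivls l1 _ (by decide +kernel)
theorem hJ : ∀ j ∈ J, orbit H j.2.1 = bitSet j.2.2 := (forall_cons o1 forall_nil)
theorem subU : bitSet U ⊆ orbit (⊤ : Subgroup HiB.G) 0 := L0.sub_top J hJ U (by decide +kernel)
theorem q1 (hH : H = stabilizer HiB.G 0) : (orbit H ((evw HiB.el w1 : HiB.G) : HiB.G ⧸ H)).ncard = 175 :=
  L0.quot hH w1 o1 c1 (by decide +kernel)
theorem orbTop : OrbGe (⊤ : Subgroup HiB.G) 0 176 := orbGe_of_sub subU cU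
theorem stab (hc : Covers H ⊤ 176) : H = stabilizer HiB.G 0 ∧ H.index = 176 := stab_eq hc fix0 orbTop
theorem mx1 (hH : H = stabilizer HiB.G 0) (hN : H.index = 176) : Mx H S1 :=
  L0.mx hH hN w1 o1 J1 (forall_cons o1 forall_nil) lBig cm1
theorem hmax (hH : H = stabilizer HiB.G 0) (hN : H.index = 176) : ∀ L : Subgroup HiB.G, H ≤ L → L = H ∨ L = ⊤ :=
  coatom_of hH (Mx.lorJ J (forall_cons (mx1 hH hN) forall_nil)) (orbit_sub_of_card hH hN (by decide) subU cU) (by decide +kernel)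
theorem low6 : Low (gensub el6 1) [6] 2 :=
  (Low.cons bot_le bot_le (L6.orbGe 6 1 3 2 (by decide) (by decide) og6) (Low.nil ⊥)).cast (by decide)
theorem low5 : Low (gensub el5 2) [5, 6] 6 :=
  (Low.step' L6 (L5.orbGe 5 4 3 3 (by decide) (by decide) og5) (by decide +kernel) low6).cast (by decide)
theorem low4 : Low (gensub el4 2) [4, 5, 6] 24 :=
  (Low.step' L5 (L4.orbGe 4 4 3 4 (by decide) (by decide) og4) (by decide +kernel) low5).cast (by decide)
theorem low3 : Low (gensub el3 2) [3, 4, 5, 6] 120 :=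
  (Low.step' L4 (L3.orbGe 3 4 3 5 (by decide) (by decide) og3) (by decide +kernel) low4).cast (by decide)
theorem low2 : Low (gensub el2 2) [2, 3, 4, 5, 6] 1440 :=
  (Low.step' L3 (L2.orbGe 2 6 4 12 (by decide) (by decide) og2) (by decide +kernel) low3).cast (by decide)
theorem low1 : Low (gensub el1 2) [1, 2, 3, 4, 5, 6] 252000 :=
  (Low.step' L2 (orbGe_of_eq o1 c1) (by decide +kernel) low2).cast (by decide)
theorem low0 : Low (gensub HiB.el 6) [0, 1, 2, 3, 4, 5, 6] 44352000 :=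
  (Low.step' L1 (HiB.htop ▸ orbTop) (by decide +kernel) low1).cast (by decide)
def bs : List ℕ := [0, 1, 2, 3, 4, 5, 6]
theorem hbs : ∀ b ∈ bs, b ∈ orbit HiB.G 0 := base_mem subU bs (by decide +kernel)
theorem top (hf : Finite HiB.G ∧ Nat.card HiB.G ≤ 44352000) : Nat.card HiB.G = 44352000 ∧ ∀ g : HiB.G, (∀ b ∈ bs, g • b = b) → g = 1 := low0.top hf
theorem hex (hb : ∀ g : HiB.G, (∀ b ∈ bs, g • b = b) → g = 1) : ∀ w ∈ ex, evw HiB.el (wpow w (11 ^ 1)) = 1 := (forall_cons (L0.word_one hb _ pw0) forall_nil)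
end CfH6.HiA
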