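import Cfsg.Agent.OD.Pre
import Cfsg.Agent.H6.HiB
import Cfsg.Agent.H6.TCPart
import Cfsg.Agent.H6.LT13
set_option autoImplicit false
set_option maxRecDepth 100000
set_option linter.all false
namespace CfH6.HiO2
open CfH6
def s0 : List (List ℕ) := [[0], [1], [2], [3], [4], [5]]
def t0 : List (List ℕ) := [[1], [2, 3, 4, 5, 3, 1, 5]]
theorem cov0 : Covers (gensub (byW HiB.el t0) 2) (gensub (byW HiB.el s0) 6) 176 :=
  cov_step HiB.el HiB.hinv HiB.hrel s0 t0 2 4 (fun ev H => LT13.covers ev H) (by decide +kernel)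
theorem top0 : gensub (byW HiB.el s0) 6 = ⊤ := (gensub_id HiB.el (by decide)).trans HiB.htop
theorem covT0 : Covers (gensub (byW HiB.el t0) 2) ⊤ 176 := cov0.top top0
end CfH6.HiO2
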