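import Cfsg.Agent.OD.Pre
import Cfsg.Agent.H6.HiA
import Cfsg.Agent.H6.HiK
import Cfsg.Agent.H6.HiO
import Cfsg.Agent.H6.HiO2
/-! An abstract presentation: order and simplicity. -/
set_option autoImplicit false
set_option maxRecDepth 100000
namespace CfH6.HiG
open CfH6 MulAction
attribute [local instance] HiA.act

theorem stab : HiA.H = stabilizer HiB.G 0 ∧ HiA.H.index = 176 := HiA.stab HiO2.covT0

theorem card : Nat.card HiB.G = 44352000 := (HiA.top HiO.finG).1

theorem base : ∀ g : HiB.G, (∀ b ∈ HiA.bs, g • b = b) → g = 1 := (HiA.top HiO.finG).2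

theorem simple : IsSimpleGroup HiB.G := by
  have := HiO.finG.1
  refine simple_of stab.1 (by rw [stab.2]; decide) (HiA.hmax stab.1 stab.2) base HiA.hbs fun M hM h => ?_
  exact top_of_index (eq_top_of_collapse HiB.el (n := 4) HiB.hinv HiB.hrel HiB.htop M
    (pow_words HiB.el h (by norm_num) (not_dvd_card card stab.2 (by decide)) 1 HiA.ex (HiA.hex base))
    (by decide +kernel) 1 fun ev' h1 h2 => HiK.covers ev' ⊥ h1 h2 forall_nil)

theorem nprime : ¬ (Nat.card HiB.G).Prime := by rw [card]; norm_num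

end CfH6.HiG
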