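import Cfsg.Agent.OD.Pre
import Cfsg.Agent.H6.MatG
import Cfsg.Agent.H4.M11
import Cfsg.Prelude.Def_Spor_Conway
/-! The Leech lattice: membership test, generators, matrices of automorphisms. -/
set_option autoImplicit false
set_option maxRecDepth 100000
namespace CfH6.Lee
open Cfsg Cfsg.Spor CfH4.Gol

abbrev V : Type := GolayPt → ℤ

def InL (x : V) : Prop := ∃ m : ℤ, ∃ u ∈ golayCode,
  (∀ i, x i % 4 = (m + 2 * (u i).val) % 4) ∧ (∑ i, x i) % 8 = (4 * m) % 8

theorem val01 : ∀ a : ZMod 2, (a = 0 ∧ (a.val : ℤ) = 0) ∨ (a = 1 ∧ (a.val : ℤ) = 1) := by decide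
theorem val_add2 : ∀ a b : ZMod 2, ((a + b).val : ℤ) % 2 = (a.val + b.val) % 2 := by decide

def LL : AddSubgroup V where
  carrier := {x | InL x}
  zero_mem' := ⟨0, 0, zero_mem _, by simp, by simp⟩
  add_mem' := by
    rintro x y ⟨m, u, hu, h1, h2⟩ ⟨n, v, hv, h3, h4⟩
    refine ⟨m + n, u + v, add_mem hu hv, fun i => ?_, ?_⟩
    · have := h1 i; have := h3 i; have := val_add2 (u i) (v i)
      simp only [Pi.add_apply]; omega
    · simp only [Pi.add_apply, Finset.sum_add_distrib]; omega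
  neg_mem' := by
    rintro x ⟨m, u, hu, h1, h2⟩
    refine ⟨-m, u, hu, fun i => ?_, ?_⟩
    · have := h1 i
      simp only [Pi.neg_apply]; omega
    · simp only [Pi.neg_apply, Finset.sum_neg_distrib]; omega

theorem one_mem : (1 : GolayPt → ZMod 2) ∈ golayCode := Submodule.subset_span (Or.inr rfl)

theorem mem_iff {x : V} : x ∈ leechLattice ↔ InL x := by
  constructor
  · refine fun h => (AddSubgroup.closure_le LL).mpr ?_ h
    rintro x ⟨m, h1, h2, h3⟩
    obtain ⟨u, hu, e⟩ := h3 (m + 2)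
    refine ⟨m, u, hu, fun i => ?_, h2⟩
    change x i % 4 = _
    have h4 : u i ≠ 0 ↔ x i % 4 = (m + 2) % 4 := by
      have := Finset.ext_iff.mp e i
      rw [support₂, Finset.mem_filter_univ, Finset.mem_filter_univ] at this
      exact this
    have h5 : x i % 2 = m % 2 := h1 i
    rcases val01 (u i) with ⟨a, b⟩ | ⟨a, b⟩
    · have := mt h4.mpr (not_not.mpr a); rw [b]; omega
    · have := h4.mp (a ▸ one_ne_zero); rw [b]; omega
  · rintro ⟨m, u, hu, h1, h2⟩
    refine AddSubgroup.subset_closure ⟨m, fun i => ?_, h2, fun k => ?_⟩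
    · have := h1 i; unfold Int.ModEq; omega
    have key : ∀ w ∈ golayCode, (∀ i, w i ≠ 0 ↔ x i % 4 = k % 4) →
        (Finset.univ.filter fun i => x i ≡ k [ZMOD 4]) ∈ supports (golayCode : Set (GolayPt → ZMod 2)) :=
      fun w hw h => ⟨w, hw, Finset.filter_congr fun i _ => h i⟩
    by_cases a : k % 4 = (m + 2) % 4
    · refine key u hu fun i => ?_
      have := h1 i
      rcases val01 (u i) with ⟨c, d⟩ | ⟨c, d⟩
      · simp only [c, ne_eq, not_true, false_iff]; omega
      · simp only [c, ne_eq, one_ne_zero, not_false_iff, true_iff]; omega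
    by_cases b : k % 4 = m % 4
    · refine key (u + 1) (add_mem hu one_mem) fun i => ?_
      have := h1 i
      rcases val01 (u i) with ⟨c, d⟩ | ⟨c, d⟩
      · simp only [Pi.add_apply, Pi.one_apply, c, zero_add, ne_eq, one_ne_zero, not_false_iff, true_iff]; omega
      · simp only [Pi.add_apply, Pi.one_apply, c, show (1 + 1 : ZMod 2) = 0 from rfl, ne_eq, not_true, false_iff]
        omega
    refine key 0 (zero_mem _) fun i => ?_
    have := h1 i
    simp only [Pi.zero_apply, ne_eq, not_true, false_iff]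
    rcases val01 (u i) with ⟨c, d⟩ | ⟨c, d⟩ <;> omega

theorem code_eq {u : GolayPt → ZMod 2} (hu : u ∈ golayCode) (y : GolayPt) :
    u y = ∑ i : Fin 12, u (pt i) * bas i y := by
  revert y
  have : ∀ j < 24, ∀ y, gen j y = ∑ i : Fin 12, gen j (pt i) * bas i y := by decide +kernel
  refine code_le (N := ⟨⟨⟨{u | ∀ y, u y = ∑ i : Fin 12, u (pt i) * bas i y}, fun {a b} ha hb y => ?_⟩, fun y => ?_⟩,
    fun c a ha y => ?_⟩) this hu
  · simp only [Pi.add_apply, add_mul, Finset.sum_add_distrib, ← ha y, ← hb y]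
  · simp
  · simp only [Pi.smul_apply, smul_eq_mul, mul_assoc, ← Finset.mul_sum, ← ha y]

/-- the word of coordinates not congruent to the one at infinity -/
def wd (x : V) (i : GolayPt) : ZMod 2 := if (x i - x none) % 4 = 0 then 0 else 1

/-- decidable membership test -/
def ChkL (x : V) : Prop := (∀ i, (x i - x none) % 2 = 0) ∧ (∀ y, wd x y = ∑ i : Fin 12, wd x (pt i) * bas i y) ∧
  (∑ i, x i) % 8 = (4 * x none) % 8

instance (x : V) : Decidable (ChkL x) := by unfold ChkL; infer_instance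

theorem ChkL.mem {x : V} (h : ChkL x) : x ∈ leechLattice := by
  refine mem_iff.mpr ⟨x none, wd x, mem_of_sum bas_mem h.2.1, fun i => ?_, h.2.2⟩
  have := h.1 i
  unfold wd
  split_ifs with a
  · rw [show ((0 : ZMod 2).val : ℤ) = 0 from rfl]; omega
  · rw [show ((1 : ZMod 2).val : ℤ) = 1 from rfl]; omega

def g0 : V := fun i => if i = none then -3 else 1
def gb (k : ℕ) : V := fun i => 2 * ((bas k i).val : ℤ)
def g4 (j : GolayPt) : V := fun i => (if i = j then 4 else 0) - (if i = none then 4 else 0)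
def v8 (j : GolayPt) : V := fun i => if i = j then 8 else 0

theorem gen_le (K : AddSubgroup V) (h0 : g0 ∈ K) (hb : ∀ k : Fin 12, gb k ∈ K) (h4 : ∀ j, g4 j ∈ K)
    (h8 : v8 none ∈ K) : leechLattice ≤ K := by
  intro x hx
  obtain ⟨m, u, hu, h1, h2⟩ := mem_iff.mp hx
  let s : V := ∑ k : Fin 12, ((u (pt k)).val : ℤ) • gb k
  have hs : s ∈ K := sum_mem fun k _ => K.zsmul_mem (hb k) _
  have a1 : ∀ i, 4 ∣ x i - m * g0 i - s i := fun i => by
    have b1 : (∑ k : Fin 12, ((u (pt k)).val : ℤ) * (bas k i).val) % 2 = ((u i).val : ℤ) % 2 := by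
      refine (ZMod.intCast_eq_intCast_iff' _ _ 2).mp ?_
      rw [code_eq hu i]
      simp
    have b2 : s i = 2 * ∑ k : Fin 12, ((u (pt k)).val : ℤ) * (bas k i).val := by
      simp only [s, Finset.sum_apply, Pi.smul_apply, gb, smul_eq_mul, Finset.mul_sum, mul_left_comm]
    have := h1 i
    unfold g0
    split_ifs <;> omega
  have a2 : (∑ i, s i) % 8 = 0 := by
    have : ∀ k : Fin 12, 8 ∣ ∑ i, gb k i := by decide +kernel
    simp only [s, Finset.sum_apply, Pi.smul_apply, smul_eq_mul]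
    rw [Finset.sum_comm]
    exact Int.emod_eq_zero_of_dvd (Finset.dvd_sum fun k _ => by
      rw [← Finset.mul_sum]; exact (this k).mul_left _)
  choose z hz using a1
  have a3 : ∑ i, x i - m * 20 - ∑ i, s i = 4 * ∑ i, z i := by
    rw [Finset.mul_sum, ← Finset.sum_congr rfl fun i _ => hz i, Finset.sum_sub_distrib, Finset.sum_sub_distrib,
      ← Finset.mul_sum, show ∑ i, g0 i = 20 by decide +kernel]
  obtain ⟨t, ht⟩ : 2 ∣ ∑ i, z i := by omega
  have : x = m • g0 + s + (∑ j, z j • g4 j + t • v8 none) := by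
    ext i
    have := hz i
    simp only [Pi.add_apply, Pi.smul_apply, Finset.sum_apply, smul_eq_mul, g4, v8, mul_sub, Finset.sum_sub_distrib,
      mul_ite, mul_zero, Finset.sum_ite_eq, Finset.mem_univ, if_true]
    split_ifs
    · rw [← Finset.sum_mul]; omega
    · rw [Finset.sum_const_zero]; omega
  rw [this]
  exact add_mem (add_mem (K.zsmul_mem h0 _) hs) (add_mem (sum_mem fun j _ => K.zsmul_mem (h4 j) _) (K.zsmul_mem h8 _))

abbrev Λ : Type := leechLattice

theorem v8_mem (j : GolayPt) : v8 j ∈ leechLattice := ChkL.mem (by revert j; decide +kernel)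
def e8 (j : GolayPt) : Λ := ⟨v8 j, v8_mem j⟩

def hom (g : Co0) : Λ →+ Λ := AddMonoidHom.mk' g.1 g.2.1

theorem sq_add (x y : V) : sqNorm (x + y) = sqNorm x + sqNorm y + 2 * dotInt x y := by
  simp only [sqNorm, dotInt, Finset.mul_sum, ← Finset.sum_add_distrib, Pi.add_apply]
  exact Finset.sum_congr rfl fun i _ => by ring

theorem dot_pres {g : Equiv.Perm Λ} (hg : g ∈ Co0) (x y : Λ) : dotInt (g x).1 (g y).1 = dotInt x.1 y.1 := by
  have h1 := hg.2 (x + y)
  rw [hg.1, AddSubgroup.coe_add, AddSubgroup.coe_add, sq_add, sq_add, hg.2, hg.2] at h1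
  omega

theorem expand (g : Co0) (x : Λ) (i : GolayPt) : 8 * (g.1 x).1 i = ∑ j, (g.1 (e8 j)).1 i * x.1 j := by
  have h1 : (8 : ℤ) • x = ∑ j, x.1 j • e8 j := by
    ext k
    simp only [e8, v8, AddSubgroup.coe_zsmul, AddSubgroup.val_finset_sum, Finset.sum_apply, Pi.smul_apply, smul_eq_mul,
      mul_ite, mul_zero, Finset.sum_ite_eq, Finset.mem_univ, if_true]
    exact mul_comm _ _
  have h2 := congrArg (fun y : Λ => y.1 i) (congrArg (hom g) h1)
  simp only [map_zsmul, map_sum] at h2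
  simpa [hom, mul_comm] using h2

theorem sq_v8 : ∀ j, sqNorm (e8 j).1 = 64 := by decide +kernel

theorem col_bd (g : Co0) (i j : GolayPt) : -8 ≤ (g.1 (e8 j)).1 i ∧ (g.1 (e8 j)).1 i ≤ 8 := by
  have h1 := g.2.2 (e8 j)
  rw [sq_v8] at h1
  have h2 : (g.1 (e8 j)).1 i ^ 2 ≤ 64 :=
    h1 ▸ Finset.single_le_sum (f := fun i => (g.1 (e8 j)).1 i ^ 2) (fun _ _ => sq_nonneg _) (Finset.mem_univ i)
  constructor <;> nlinarith

/-- the matrix of an automorphism modulo 17 -/
def Φ : Co0 →* Matrix GolayPt GolayPt (ZMod 17) where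
  toFun g := Matrix.of fun i j => 15 * ((g.1 (e8 j)).1 i : ZMod 17)
  map_one' := by
    ext i j
    change 15 * ((v8 j i : ℤ) : ZMod 17) = _
    rw [v8, Matrix.one_apply]
    split_ifs <;> rfl
  map_mul' g h := by
    ext i j
    have h1 := congrArg (Int.cast : ℤ → ZMod 17) (expand g (h.1 (e8 j)) i)
    push_cast at h1
    rw [Matrix.mul_apply]
    change 15 * (((g.1 (h.1 (e8 j))).1 i : ℤ) : ZMod 17) = _
    rw [show (15 : ZMod 17) * (((g.1 (h.1 (e8 j))).1 i : ℤ) : ZMod 17) =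
      15 * 15 * (8 * (((g.1 (h.1 (e8 j))).1 i : ℤ) : ZMod 17)) by
        rw [← mul_assoc, show (15 * 15 * 8 : ZMod 17) = 15 from rfl], h1, Finset.mul_sum]
    exact Finset.sum_congr rfl fun k _ => by rw [Matrix.of_apply, Matrix.of_apply]; ring

theorem ext8 {g h : Co0} (e : ∀ j, g.1 (e8 j) = h.1 (e8 j)) : g = h := by
  refine Subtype.ext (Equiv.ext fun x => Subtype.ext (funext fun i => ?_))
  have h1 := expand g x i
  simp only [e, ← expand h x i] at h1
  omega

theorem Φ_inj : Function.Injective Φ := fun g h e => ext8 fun j => Subtype.ext (funext fun i => by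
  have h1 : ((15 * (g.1 (e8 j)).1 i : ℤ) : ZMod 17) = ((15 * (h.1 (e8 j)).1 i : ℤ) : ZMod 17) := by
    push_cast; exact congrFun (congrFun e i) j
  have h2 := (ZMod.intCast_eq_intCast_iff' _ _ 17).mp h1
  have := col_bd g i j
  have := col_bd h i j
  omega)

def eqv : GolayPt ≃ Fin 24 := ⟨fun p => ⟨ix p, by revert p; decide⟩, fun i => pt i, by decide, by decide⟩
abbrev PM : MP := ⟨24, 26, 17, 5, 9, 7711, 17, 0, 0⟩
noncomputable abbrev sem : ℕ → Matrix GolayPt GolayPt (ZMod 17) := PM.toM (ZMod 17) eqv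

theorem D : Mdl PM.mm PM.okb PM.one sem := MP.mdl (P := PM) (ZMod 17) eqv (by decide) (by decide +kernel)

/-- eight times the matrix with code `X` -/
def A (X : ℕ) (i j : GolayPt) : ℤ := ((8 * dig 26 X (ix i * 24 + ix j) + 8) % 17 : ℕ) - (8 : ℤ)

theorem col_eq {g : Co0} {X : ℕ} (h : Φ g = sem X) (i j : GolayPt) : (g.1 (e8 j)).1 i = A X i j := by
  have h1 : ((15 * (g.1 (e8 j)).1 i : ℤ) : ZMod 17) = ((dig 26 X (ix i * 24 + ix j) : ℤ) : ZMod 17) := by
    push_cast; exact congrFun (congrFun h i) j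
  have h2 := (ZMod.intCast_eq_intCast_iff' _ _ 17).mp h1
  have := col_bd g i j
  unfold A
  omega

def mv (X : ℕ) (x : V) : V := fun i => ∑ j, A X i j * x j

theorem act {g : Co0} {X : ℕ} (h : Φ g = sem X) {x y : Λ} (e : ∀ i, mv X x.1 i = 8 * y.1 i) : g.1 x = y :=
  Subtype.ext (funext fun i => by
    have h1 := expand g x i
    simp only [col_eq h] at h1
    have := e i
    unfold mv at this
    omega)

def Ok1 (X : ℕ) (x : V) : Prop := (∀ i, mv X x i % 8 = 0) ∧ ChkL fun i => mv X x i / 8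
instance (X : ℕ) (x : V) : Decidable (Ok1 X x) := by unfold Ok1; infer_instance

def Ok (X : ℕ) : Prop := Ok1 X g0 ∧ (∀ k : Fin 12, Ok1 X (gb k)) ∧ (∀ j, Ok1 X (g4 j)) ∧ Ok1 X (v8 none) ∧
  ∀ j k, ∑ i, A X i j * A X i k = if j = k then 64 else 0
instance (X : ℕ) : Decidable (Ok X) := by unfold Ok; infer_instance

theorem mv_add (X : ℕ) (x y : V) : mv X (x + y) = mv X x + mv X y := by
  ext i; simp only [mv, Pi.add_apply, mul_add, Finset.sum_add_distrib]

theorem Ok.ex {X : ℕ} (h : Ok X) (x : Λ) : ∃ y : Λ, ∀ i, mv X x.1 i = 8 * y.1 i := by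
  let K : AddSubgroup V := ⟨⟨⟨{x | ∃ y : Λ, ∀ i, mv X x i = 8 * y.1 i}, ?_⟩, 0, fun i => by simp [mv]⟩, ?_⟩
  · have a : ∀ x, Ok1 X x → x ∈ K := fun x hx => ⟨⟨_, hx.2.mem⟩, fun i => by have := hx.1 i; dsimp only; omega⟩
    exact gen_le K (a _ h.1) (fun k => a _ (h.2.1 k)) (fun j => a _ (h.2.2.1 j)) (a _ h.2.2.2.1) x.2
  · rintro x y ⟨a, ha⟩ ⟨b, hb⟩
    exact ⟨a + b, fun i => by simp only [mv_add, Pi.add_apply, ha, hb, AddSubgroup.coe_add, mul_add]⟩
  · rintro x ⟨a, ha⟩
    refine ⟨-a, fun i => ?_⟩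
    have := ha i
    simp only [mv, Pi.neg_apply, mul_neg, Finset.sum_neg_distrib, AddSubgroup.coe_neg] at this ⊢
    rw [this]

theorem Ok.back {X Y : ℕ} (h : Ok X) (t : ∀ i j, A Y i j = A X j i) (x : V) (i : GolayPt) :
    mv Y (mv X x) i = 64 * x i := by
  simp only [mv, t, Finset.mul_sum, ← mul_assoc]
  rw [Finset.sum_comm]
  simp only [← Finset.sum_mul, h.2.2.2.2, ite_mul, zero_mul, Finset.sum_ite_eq, Finset.mem_univ, if_true]

theorem mv8 (X : ℕ) {x y : V} (h : ∀ i, x i = 8 * y i) (i : GolayPt) : mv X x i = 8 * mv X y i := by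
  simp only [mv, h, Finset.mul_sum, mul_left_comm]

theorem ex_aut {X Y : ℕ} (hX : Ok X) (hY : Ok Y) (t : ∀ i j, A Y i j = A X j i) : ∃ g, Φ g = sem X := by
  choose f hf using hX.ex
  choose f' hf' using hY.ex
  have a1 : ∀ x, f' (f x) = x := fun x => Subtype.ext (funext fun i => by
    have := hX.back t x.1 i; rw [mv8 Y (hf x), hf'] at this; omega)
  have a2 : ∀ x, f (f' x) = x := fun x => Subtype.ext (funext fun i => by
    have := hY.back (fun i j => (t j i).symm) x.1 i; rw [mv8 X (hf' x), hf] at this; omega)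
  refine ⟨⟨⟨f, f', a1, a2⟩, fun x y => Subtype.ext (funext fun i => ?_), fun x => ?_⟩, ?_⟩
  · have := hf (x + y) i
    rw [AddSubgroup.coe_add, mv_add, Pi.add_apply, hf, hf] at this
    change (f (x + y)).1 i = (f x).1 i + (f y).1 i
    omega
  · have b1 : ∑ i, mv X x.1 i * mv X x.1 i = ∑ j, mv Y (mv X x.1) j * x.1 j := by
      generalize hy : mv X x.1 = y
      conv_lhs => enter [2, i, 2]; rw [← hy]
      simp only [mv, t, Finset.mul_sum, Finset.sum_mul]
      rw [Finset.sum_comm]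
      exact Finset.sum_congr rfl fun _ _ => Finset.sum_congr rfl fun _ _ => by ring
    simp only [hX.back t, hf] at b1
    have b2 : 64 * sqNorm (f x).1 = 64 * sqNorm x.1 := by
      simp only [sqNorm, Finset.mul_sum]
      exact (Finset.sum_congr rfl fun _ _ => by ring).trans (b1.trans (Finset.sum_congr rfl fun _ _ => by ring))
    change sqNorm (f x).1 = _
    omega
  · ext i j
    change 15 * (((f (e8 j)).1 i : ℤ) : ZMod 17) = ((dig 26 X (ix i * 24 + ix j) : ℕ) : ZMod 17)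
    have b1 := hf (e8 j) i
    simp only [mv, e8, v8, mul_ite, mul_zero, Finset.sum_ite_eq', Finset.mem_univ, if_true] at b1
    have : ((15 * (f (e8 j)).1 i : ℤ) : ZMod 17) = ((dig 26 X (ix i * 24 + ix j) : ℤ) : ZMod 17) := by
      refine (ZMod.intCast_eq_intCast_iff' _ _ 17).mpr ?_
      unfold A at b1
      change _ = 8 * (f (e8 j)).1 i at b1
      omega
    push_cast at this
    exact this

end CfH6.Lee
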