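import Cfsg.Agent.OD.Pre
import Cfsg.Agent.H6.Lee
import Cfsg.Agent.H6.Net
/-! Counting minimal vectors of the Leech lattice. -/
set_option autoImplicit false
set_option maxRecDepth 100000
namespace CfH6.Lee
open Cfsg Cfsg.Spor CfH4.Gol

/-- depth-first count: every coordinate has a list of options (statistic, excess) -/
noncomputable def cnt (g : ℕ → ℕ) (l : List (List (ℕ × ℕ))) : ℕ → ℕ → ℕ :=
  List.rec (fun e s => cond (Nat.beq e 0) (g s) 0) (fun t _ ih e s =>
    List.rec 0 (fun o _ r => Nat.add (cond (Nat.ble o.2 e)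
      (force (Nat.sub e o.2) fun e' => force (Nat.add s o.1) fun s' => ih e' s') 0) r) t) l

theorem cnt_cons (g : ℕ → ℕ) (t : List (ℕ × ℕ)) (l : List (List (ℕ × ℕ))) (e s : ℕ) :
    cnt g (t :: l) e s = (t.map fun o => if o.2 ≤ e then cnt g l (e - o.2) (s + o.1) else 0).sum := by
  induction t with
  | nil => rfl
  | cons o t ih =>
    rw [List.map_cons, List.sum_cons, ← ih]
    change cond (Nat.ble o.2 e) (force _ fun e' => force _ fun s' => cnt g l e' s') 0 + _ = _
    rw [force_eq, force_eq]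
    congr 1
    by_cases h : o.2 ≤ e
    · rw [if_pos h, Nat.ble_eq_true_of_le h]; rfl
    · rw [if_neg h, Bool.eq_false_iff.mpr (mt Nat.le_of_ble_eq_true h)]; rfl

theorem card_le_sum {α β : Type*} [DecidableEq α] [DecidableEq β] (f : α → β) (O : List β) (T : Finset α)
    (h : ∀ x ∈ T, f x ∈ O) : T.card ≤ (O.map fun a => (T.filter fun x => f x = a).card).sum := by
  rw [Finset.card_eq_sum_card_fiberwise (t := O.toFinset) fun x hx => List.mem_toFinset.mpr (h x hx)]
  clear h
  induction O with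
  | nil => simp
  | cons a O ih =>
    rw [List.toFinset_cons, List.map_cons, List.sum_cons]
    by_cases ha : a ∈ O.toFinset
    · rw [Finset.insert_eq_of_mem ha]; omega
    · rw [Finset.sum_insert ha]; omega

theorem cnt_sound (g : ℕ → ℕ) (O : GolayPt → List ℤ) (y q : GolayPt → ℤ → ℕ) (ps : List GolayPt) (e s : ℕ)
    (T : Finset V) (h1 : ∀ x ∈ T, ∀ x' ∈ T, ∀ p ∉ ps, x p = x' p) (h2 : ∀ x ∈ T, ∀ p, x p ∈ O p)
    (h3 : ∀ x ∈ T, (ps.map fun p => q p (x p)).sum = e ∧ 1 ≤ g (s + (ps.map fun p => y p (x p)).sum)) :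
    T.card ≤ cnt g (ps.map fun p => (O p).map fun a => (y p a, q p a)) e s := by
  induction ps generalizing e s T with
  | nil =>
    rcases T.eq_empty_or_nonempty with rfl | ⟨x, hx⟩
    · exact Nat.zero_le _
    obtain ⟨rfl, h⟩ := h3 x hx
    exact (Finset.card_le_one.mpr fun a ha b hb => funext fun p => h1 a ha b hb p List.not_mem_nil).trans h
  | cons p ps ih =>
    rw [List.map_cons, cnt_cons, List.map_map]
    refine (card_le_sum (fun x => x p) (O p) T fun x hx => h2 x hx p).trans (List.sum_le_sum fun a _ => ?_)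
    rcases (T.filter fun x => x p = a).eq_empty_or_nonempty with h | ⟨x, hx⟩
    · rw [h]; exact Nat.zero_le _
    have b : ∀ x ∈ T.filter fun x => x p = a, q p a + (ps.map fun p => q p (x p)).sum = e ∧
        1 ≤ g (s + y p a + (ps.map fun p => y p (x p)).sum) := fun x hx => by
      obtain ⟨c, rfl⟩ := Finset.mem_filter.mp hx
      simpa only [List.map_cons, List.sum_cons, add_assoc] using h3 x c
    have := (b x hx).1
    rw [Function.comp, if_pos (by dsimp only; omega)]
    refine ih _ _ _ (fun x hx x' hx' r hr => ?_) (fun x hx => h2 x (Finset.mem_filter.mp hx).1)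
      fun x hx => ⟨by have := (b x hx).1; dsimp only; omega, (b x hx).2⟩
    obtain ⟨c, d⟩ := Finset.mem_filter.mp hx
    obtain ⟨c', d'⟩ := Finset.mem_filter.mp hx'
    by_cases hp : r = p
    · rw [hp, d, d']
    · exact h1 x c x' c' r (by simp [hp, hr])

/-- all sums of members of a list of masks -/
def cws : List ℕ → ℕ → List ℕ
  | [], c => [c]
  | b :: l, c => cws l c ++ cws l (c ^^^ b)

noncomputable def sumC (f : ℕ → ℕ) (l : List ℕ) : ℕ → ℕ :=
  List.rec f (fun b _ ih c => Nat.add (ih c) (force (Nat.xor c b) ih)) l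

theorem sumC_eq (f : ℕ → ℕ) (l : List ℕ) (c : ℕ) : sumC f l c = ((cws l c).map f).sum := by
  induction l generalizing c with
  | nil => rfl
  | cons b l ih =>
    rw [cws, List.map_append, List.sum_append, ← ih, ← ih]
    exact congrArg _ (force_eq _ _)

theorem mem_cws (l : List ℕ) (a : ℕ → ZMod 2) (c : ℕ) :
    ∃ d ∈ cws l c, ∀ j, bit d j = bit c j + (l.map fun b => a b * bit b j).sum := by
  induction l generalizing c with
  | nil => exact ⟨c, List.mem_singleton_self _, by simp⟩
  | cons b l ih =>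
    rcases val01 (a b) with ⟨h, -⟩ | ⟨h, -⟩
    · obtain ⟨d, h1, h2⟩ := ih c
      exact ⟨d, List.mem_append_left _ h1, fun j => by simp [h2, h]⟩
    · obtain ⟨d, h1, h2⟩ := ih (c ^^^ b)
      exact ⟨d, List.mem_append_right _ h1, fun j => by simp [h2, h, bit_xor, add_assoc]⟩

def bl : List ℕ := [13062145, 4845570, 13938692, 7221256, 10170384, 11952160,
  15515712, 2019456, 4038912, 8077824, 11654144, 14919680]

theorem code_cws {u : GolayPt → ZMod 2} (hu : u ∈ golayCode) : ∃ d ∈ cws bl 0, ∀ y, u y = bit d (ix y) := by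
  obtain ⟨d, h1, h2⟩ := mem_cws bl (fun b => u (pt (bl.idxOf b))) 0
  refine ⟨d, h1, fun y => ?_⟩
  rw [h2, code_eq hu y]
  rw [show bit 0 (ix y) = 0 by simp [bit], zero_add, ← List.sum_toFinset _ (by decide),
    show bl.toFinset = Finset.univ.map ⟨fun i : Fin 12 => bl.getD i 0, by decide⟩ by decide, Finset.sum_map]
  refine Finset.sum_congr rfl fun i _ => ?_
  rw [Function.Embedding.coeFn_mk, show bl.idxOf (bl.getD i 0) = i by revert i; decide]
  rfl

def opt (r : ℕ) : List ℤ := [[0, 4, -4], [1, -3, 5], [2, -2], [-1, 3, -5]].getD r []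
def mn (r : ℕ) : ℕ := [0, 1, 4, 1].getD r 0
def tb (w r : ℕ) : List (ℕ × ℕ) := (opt r).map fun a => ((a + 5).toNat * w, (a ^ 2 - mn r).toNat)
def res (m c i : ℕ) : ℕ := m + 2 * (c >>> i % 2)
def wt (p : GolayPt) : ℕ := if p = none then 1025 else if p = some 0 then 1048577 else 1

def t1 (r : ℕ) : List (ℕ × ℕ) := [[(5, 0), (9, 16), (1, 16)], [(6, 0), (2, 8), (10, 24)], [(7, 0), (3, 0)],
  [(4, 0), (8, 8), (0, 24)]].getD r []

/-- the option tables of the coordinates `l` -/
noncomputable def mkL (tA tB : List (ℕ × ℕ)) (c : ℕ) (k : List (List (ℕ × ℕ)) → ℕ) (l : List ℕ) :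
    List (List (ℕ × ℕ)) → ℕ :=
  List.rec k (fun i _ ih acc => Nat.rec (ih (tA :: acc)) (fun _ _ => ih (tB :: acc)) (Nat.mod (Nat.shiftRight c i) 2)) l

theorem mkL_eq (m c : ℕ) (k : List (List (ℕ × ℕ)) → ℕ) (l : List ℕ) (acc : List (List (ℕ × ℕ))) :
    mkL (t1 m) (t1 (m + 2)) c k l acc = k (l.reverse.map (fun i => t1 (res m c i)) ++ acc) := by
  induction l generalizing acc with
  | nil => rfl
  | cons i l ih =>
    rw [List.reverse_cons, List.map_append, List.append_assoc, ← ih]
    change Nat.rec (motive := fun _ => ℕ) (mkL (t1 m) (t1 (m + 2)) c k l (t1 m :: acc))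
      (fun _ _ => mkL (t1 m) (t1 (m + 2)) c k l (t1 (m + 2) :: acc)) (c >>> i % 2) =
      mkL (t1 m) (t1 (m + 2)) c k l (t1 (res m c i) :: acc)
    unfold res
    rcases Nat.mod_two_eq_zero_or_one (c >>> i) with h | h <;> rw [h] <;> rfl

noncomputable def lb (m c : ℕ) : ℕ := ((List.range 24).map fun i => mn (res m c i)).sum

noncomputable def one (g : ℕ → ℕ) (m c : ℕ) : ℕ := force (lb m c) fun b => cond (Nat.ble b 32)
  (mkL (t1 m) (t1 (m + 2)) c (fun l => cnt g (tb 1025 (res m c 23) :: tb 1048577 (res m c 0) :: l) (32 - b) 0)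
    [1, 2, 3, 4, 5, 6, 7, 8, 9, 10, 11, 12, 13, 14, 15, 16, 17, 18, 19, 20, 21, 22] []) 0

noncomputable def gP (P : ℕ → ℕ → ℕ → Bool) (m s : ℕ) : ℕ :=
  cond (Nat.beq (Nat.mod s 8) (Nat.mul 4 m) && P (Nat.mod s 1024) (Nat.mod (Nat.div s 1024) 1024) (Nat.div s 1048576)) 1 0

def ps : List GolayPt := [23, 0, 22, 21, 20, 19, 18, 17, 16, 15, 14, 13, 12, 11, 10, 9, 8, 7, 6, 5, 4, 3, 2, 1].map pt

theorem sum_ps {M : Type*} [AddCommMonoid M] (f : GolayPt → M) : (ps.map f).sum = ∑ i, f i := by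
  rw [← List.sum_toFinset f (by decide), show ps.toFinset = Finset.univ by decide]

theorem one_sound (P : ℕ → ℕ → ℕ → Bool) {m : ℕ} (hm : m < 2) (c : ℕ) (T : Finset V)
    (h : ∀ x ∈ T, (∀ i, x i % 4 = res m c (ix i)) ∧ (∑ i, x i) % 8 = 4 * m ∧ sqNorm x = 32 ∧
      P (∑ i, x i + 120).toNat (x none + 5).toNat (x (some 0) + 5).toNat = true) : T.card ≤ one (gP P m) m c := by
  rcases T.eq_empty_or_nonempty with rfl | ⟨x0, hx0⟩
  · exact Nat.zero_le _
  have r4 : ∀ i, res m c i < 4 := fun i => by unfold res; omega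
  have a1 : ∀ x ∈ T, ∀ p, x p ∈ opt (res m c (ix p)) := fun x hx p => by
    obtain ⟨b1, -, b2, -⟩ := h x hx
    have b3 : x p ^ 2 ≤ 32 :=
      b2 ▸ Finset.single_le_sum (f := fun i => x i ^ 2) (fun _ _ => sq_nonneg _) (Finset.mem_univ p)
    have b4 : -6 < x p := by nlinarith
    have b5 : x p < 6 := by nlinarith
    have b6 := b1 p
    have := r4 (ix p)
    generalize res m c (ix p) = r at *
    generalize x p = a at *
    clear b3
    interval_cases r <;> interval_cases a <;> simp_all [opt]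
  have a2 : ∀ r < 4, ∀ a ∈ opt r, (((a ^ 2 - mn r).toNat : ℤ) = a ^ 2 - mn r) ∧ ((a + 5).toNat : ℤ) = a + 5 ∧
    a ≤ 5 := by decide
  have a3 : ∀ x ∈ T, (ps.map fun p => (x p ^ 2 - mn (res m c (ix p))).toNat).sum + lb m c = 32 := fun x hx => by
    have : lb m c = ∑ p, mn (res m c (ix p)) := by
      rw [lb, ← List.sum_toFinset _ List.nodup_range, List.toFinset_range, Finset.sum_range]
      exact (eqv.sum_comp fun i : Fin 24 => mn (res m c i)).symm
    rw [this, sum_ps]
    zify
    rw [Finset.sum_congr rfl fun p _ => (a2 _ (r4 _) _ (a1 x hx p)).1, Finset.sum_sub_distrib, sub_add_cancel]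
    exact (h x hx).2.2.1
  have a4 := a3 x0 hx0
  rw [one, force_eq, Nat.ble_eq_true_of_le (by omega), cond_true, mkL_eq]
  have a5 : ∀ r < 4, t1 r = tb 1 r := by decide
  refine (cnt_sound (gP P m) (fun p => opt (res m c (ix p))) (fun p a => (a + 5).toNat * wt p)
    (fun p a => (a ^ 2 - mn (res m c (ix p))).toNat) ps (32 - lb m c) 0 T
    (fun _ _ _ _ p hp => absurd (by revert p; decide) hp) a1 fun x hx => ⟨by have := a3 x hx; omega, ?_⟩).trans_eq ?_
  · obtain ⟨-, b1, -, b2⟩ := h x hx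
    have b3 : ∀ p, ((x p + 5).toNat : ℤ) = x p + 5 ∧ x p ≤ 5 := fun p => (a2 _ (r4 _) _ (a1 x hx p)).2
    have b4 : ((ps.map fun p => (x p + 5).toNat * wt p).sum : ℤ) =
        ∑ i, x i + 120 + 1024 * (x none + 5) + 1048576 * (x (some 0) + 5) := by
      have : ∀ p, (wt p : ℤ) = 1 + (if p = none then 1024 else 0) + (if p = some 0 then 1048576 else 0) := by decide
      rw [sum_ps]
      push_cast
      simp only [b3, this, mul_add, mul_one, mul_ite, mul_zero, Finset.sum_add_distrib, Finset.sum_ite_eq',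
        Finset.mem_univ, if_true]
      rw [show ∑ _ : GolayPt, (5 : ℤ) = 120 by decide]
      ring
    have b5 : ∑ i, x i ≤ ∑ _ : GolayPt, (5 : ℤ) := Finset.sum_le_sum fun i _ => (b3 i).2
    have b6 : ∑ _ : GolayPt, (-5 : ℤ) ≤ ∑ i, x i := Finset.sum_le_sum fun i _ => by have := (b3 i).1; omega
    rw [show ∑ _ : GolayPt, (5 : ℤ) = 120 by decide] at b5
    rw [show ∑ _ : GolayPt, (-5 : ℤ) = -120 by decide] at b6
    have b7 := b3 none
    have b8 := b3 (some 0)
    rw [zero_add]
    generalize (ps.map fun p => (x p + 5).toNat * wt p).sum = s at b4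
    have c1 : s % 8 = 4 * m := by omega
    have c2 : s % 1024 = (∑ i, x i + 120).toNat := by omega
    have c3 : s / 1024 % 1024 = (x none + 5).toNat := by omega
    have c4 : s / 1048576 = (x (some 0) + 5).toNat := by omega
    change 1 ≤ cond (Nat.beq (s % 8) (4 * m) && P (s % 1024) (s / 1024 % 1024) (s / 1048576)) 1 0
    rw [c1, c2, c3, c4, b2, Nat.beq_refl]
    exact le_rfl
  · simp only [a5 _ (r4 _)]
    rfl

noncomputable def total (P : ℕ → ℕ → ℕ → Bool) : ℕ := sumC (one (gP P 0) 0) bl 0 + sumC (one (gP P 1) 1) bl 0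

def l2 : List ℕ := [10170384, 11952160, 15515712, 2019456, 4038912, 8077824, 11654144, 14919680]
noncomputable def part (P : ℕ → ℕ → ℕ → Bool) (c : ℕ) : ℕ := sumC (one (gP P 0) 0) l2 c + sumC (one (gP P 1) 1) l2 c

theorem total_eq (P : ℕ → ℕ → ℕ → Bool) : total P = ([0, 7221256, 13938692, 12222476, 4845570, 2605066, 10305542, 15953934, 13062145, 11100169, 1302533, 8245261, 9347075, 14716939, 5902343, 3416079].map (part P)).sum := by
  have : ∀ f, sumC f bl 0 = ([0, 7221256, 13938692, 12222476, 4845570, 2605066, 10305542, 15953934, 13062145, 11100169, 1302533, 8245261, 9347075, 14716939, 5902343, 3416079].map (sumC f l2)).sum := fun f =>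
    (sumC_eq (sumC f l2) [13062145, 4845570, 13938692, 7221256] 0).trans (by rw [show cws [13062145, 4845570, 13938692, 7221256] 0 = [0, 7221256, 13938692, 12222476, 4845570, 2605066, 10305542, 15953934, 13062145, 11100169, 1302533, 8245261, 9347075, 14716939, 5902343, 3416079] by decide])
  rw [total, this, this, ← List.sum_map_add]
  rfl

theorem normal_form {x : V} (hx : x ∈ leechLattice) : ∃ m < 2, ∃ c ∈ cws bl 0,
    (∀ i, x i % 4 = res m c (ix i)) ∧ (∑ i, x i) % 8 = 4 * m := by
  obtain ⟨m, u, hu, h1, h2⟩ := mem_iff.mp hx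
  have key : ∀ c i, ((bit c i).val : ℤ) = (c >>> i % 2 : ℕ) := fun c i => by
    unfold bit
    rw [Nat.testBit, Nat.one_and_eq_mod_two]
    rcases Nat.mod_two_eq_zero_or_one (c >>> i) with h | h <;> rw [h] <;> rfl
  by_cases a : m % 4 < 2
  · obtain ⟨c, hc, e⟩ := code_cws hu
    refine ⟨(m % 2).toNat, by omega, c, hc, fun i => ?_, by omega⟩
    have := h1 i
    rw [e, key] at this
    unfold res; omega
  · obtain ⟨c, hc, e⟩ := code_cws (add_mem hu one_mem)
    refine ⟨(m % 2).toNat, by omega, c, hc, fun i => ?_, by omega⟩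
    have := h1 i
    have b := val_add2 (u i) 1
    rw [show u i + 1 = bit c (ix i) from e i, key, show ((1 : ZMod 2).val : ℤ) = 1 from rfl] at b
    unfold res; omega

theorem count (P : ℕ → ℕ → ℕ → Bool) (T : Finset V) (h : ∀ x ∈ T, x ∈ leechLattice ∧ sqNorm x = 32 ∧
    P (∑ i, x i + 120).toNat (x none + 5).toNat (x (some 0) + 5).toNat = true) : T.card ≤ total P := by
  classical
  have h1 := fun x : T => normal_form (h x.1 x.2).1
  choose m hm c hc h2 using h1
  have a : ∀ k < 2, (Finset.univ.filter fun x : T => m x = k).card ≤ sumC (one (gP P k) k) bl 0 := fun k hk => by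
    rw [sumC_eq]
    refine (card_le_sum c _ _ fun x _ => hc x).trans (List.sum_le_sum fun d _ => ?_)
    rw [← Finset.card_map (Function.Embedding.subtype _)]
    refine one_sound P hk d _ fun x hx => ?_
    obtain ⟨y, hy, rfl⟩ := Finset.mem_map.mp hx
    simp only [Finset.mem_filter] at hy
    obtain ⟨⟨-, rfl⟩, rfl⟩ := hy
    exact ⟨(h2 y).1, (h2 y).2, (h y.1 y.2).2⟩
  have b := card_le_sum m [0, 1] Finset.univ fun x _ => by have := hm x; simp; omega
  rw [Finset.card_univ, Fintype.card_coe] at b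
  have := a 0 (by decide)
  have := a 1 (by decide)
  simp only [List.map_cons, List.sum_cons, List.map_nil, List.sum_nil] at b
  unfold total; omega

end CfH6.Lee
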