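import Cfsg.Agent.OD.Pre
import Cfsg.Agent.H6.Lec
/-! A count of minimal vectors. -/
set_option autoImplicit false
set_option maxRecDepth 100000
set_option Elab.async false
set_option linter.all false
namespace CfH6.Lee
open CfH6
def Pq (S a b : ℕ) : Bool := Nat.beq a 6 && Nat.beq b 6 && Nat.beq S 140
theorem nq0 : part Pq 0 = 22 := by decide +kernel
theorem nq1 : part Pq 7221256 = 0 := by decide +kernel
theorem nq2 : part Pq 13938692 = 0 := by decide +kernel
theorem nq3 : part Pq 12222476 = 0 := by decide +kernel
theorem nq4 : part Pq 4845570 = 0 := by decide +kernel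
theorem nq5 : part Pq 2605066 = 0 := by decide +kernel
theorem nq6 : part Pq 10305542 = 0 := by decide +kernel
theorem nq7 : part Pq 15953934 = 0 := by decide +kernel
theorem nq8 : part Pq 13062145 = 0 := by decide +kernel
theorem nq9 : part Pq 11100169 = 0 := by decide +kernel
theorem nq10 : part Pq 1302533 = 0 := by decide +kernel
theorem nq11 : part Pq 8245261 = 0 := by decide +kernel
theorem nq12 : part Pq 9347075 = 0 := by decide +kernel
theorem nq13 : part Pq 14716939 = 0 := by decide +kernel
theorem nq14 : part Pq 5902343 = 0 := by decide +kernel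
theorem nq15 : part Pq 3416079 = 0 := by decide +kernel
theorem nq : total Pq = 22 := by
  simp only [total_eq, List.map_cons, List.map_nil, nq0, nq1, nq2, nq3, nq4, nq5, nq6, nq7, nq8, nq9, nq10, nq11, nq12, nq13, nq14, nq15]
  rfl
end CfH6.Lee
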