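import Cfsg.Agent.OD.Pre
import Cfsg.Agent.H6.Lec
/-! A count of minimal vectors. -/
set_option autoImplicit false
set_option maxRecDepth 100000
set_option Elab.async false
set_option linter.all false
namespace CfH6.Lee
open CfH6
def Phs (S a b : ℕ) : Bool := Nat.beq a b && Nat.beq (S + 4 * a) 164
theorem nhs0 : part Phs 0 = 23 := by decide +kernel
theorem nhs1 : part Phs 7221256 = 0 := by decide +kernel
theorem nhs2 : part Phs 13938692 = 0 := by decide +kernel
theorem nhs3 : part Phs 12222476 = 0 := by decide +kernel
theorem nhs4 : part Phs 4845570 = 0 := by decide +kernel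
theorem nhs5 : part Phs 2605066 = 0 := by decide +kernel
theorem nhs6 : part Phs 10305542 = 0 := by decide +kernel
theorem nhs7 : part Phs 15953934 = 0 := by decide +kernel
theorem nhs8 : part Phs 13062145 = 28 := by decide +kernel
theorem nhs9 : part Phs 11100169 = 12 := by decide +kernel
theorem nhs10 : part Phs 1302533 = 12 := by decide +kernel
theorem nhs11 : part Phs 8245261 = 4 := by decide +kernel
theorem nhs12 : part Phs 9347075 = 12 := by decide +kernel
theorem nhs13 : part Phs 14716939 = 4 := by decide +kernel
theorem nhs14 : part Phs 5902343 = 4 := by decide +kernel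
theorem nhs15 : part Phs 3416079 = 1 := by decide +kernel
theorem nhs : total Phs = 100 := by
  simp only [total_eq, List.map_cons, List.map_nil, nhs0, nhs1, nhs2, nhs3, nhs4, nhs5, nhs6, nhs7, nhs8, nhs9, nhs10, nhs11, nhs12, nhs13, nhs14, nhs15]
  rfl
end CfH6.Lee
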