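import Cfsg.Agent.OD.Pre
import Cfsg.Agent.H6.Lec
/-! A count of minimal vectors. -/
set_option autoImplicit false
set_option maxRecDepth 100000
set_option Elab.async false
set_option linter.all false
namespace CfH6.Lee
open CfH6
def Pmc (S a b : ℕ) : Bool := Nat.beq (a + b) 10 && Nat.beq (S + 4 * a) 156
theorem nmc0 : part Pmc 0 = 79 := by decide +kernel
theorem nmc1 : part Pmc 7221256 = 52 := by decide +kernel
theorem nmc2 : part Pmc 13938692 = 52 := by decide +kernel
theorem nmc3 : part Pmc 12222476 = 28 := by decide +kernel
theorem nmc4 : part Pmc 4845570 = 52 := by decide +kernel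
theorem nmc5 : part Pmc 2605066 = 28 := by decide +kernel
theorem nmc6 : part Pmc 10305542 = 28 := by decide +kernel
theorem nmc7 : part Pmc 15953934 = 12 := by decide +kernel
theorem nmc8 : part Pmc 13062145 = 532 := by decide +kernel
theorem nmc9 : part Pmc 11100169 = 268 := by decide +kernel
theorem nmc10 : part Pmc 1302533 = 268 := by decide +kernel
theorem nmc11 : part Pmc 8245261 = 108 := by decide +kernel
theorem nmc12 : part Pmc 9347075 = 268 := by decide +kernel
theorem nmc13 : part Pmc 14716939 = 108 := by decide +kernel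
theorem nmc14 : part Pmc 5902343 = 108 := by decide +kernel
theorem nmc15 : part Pmc 3416079 = 34 := by decide +kernel
theorem nmc : total Pmc = 2025 := by
  simp only [total_eq, List.map_cons, List.map_nil, nmc0, nmc1, nmc2, nmc3, nmc4, nmc5, nmc6, nmc7, nmc8, nmc9, nmc10, nmc11, nmc12, nmc13, nmc14, nmc15]
  rfl
end CfH6.Lee
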