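import Cfsg.Agent.OD.Pre
import Cfsg.Agent.H6.Lec
/-! A count of minimal vectors. -/
set_option autoImplicit false
set_option maxRecDepth 100000
set_option Elab.async false
set_option linter.all false
namespace CfH6.Lee
open CfH6
def Pc3 (S a b : ℕ) : Bool := Nat.beq (S + 4 * a) 164
theorem nc30 : part Pc3 0 = 150 := by decide +kernel
theorem nc31 : part Pc3 7221256 = 56 := by decide +kernel
theorem nc32 : part Pc3 13938692 = 56 := by decide +kernel
theorem nc33 : part Pc3 12222476 = 24 := by decide +kernel
theorem nc34 : part Pc3 4845570 = 56 := by decide +kernel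
theorem nc35 : part Pc3 2605066 = 24 := by decide +kernel
theorem nc36 : part Pc3 10305542 = 24 := by decide +kernel
theorem nc37 : part Pc3 15953934 = 8 := by decide +kernel
theorem nc38 : part Pc3 13062145 = 56 := by decide +kernel
theorem nc39 : part Pc3 11100169 = 24 := by decide +kernel
theorem nc310 : part Pc3 1302533 = 24 := by decide +kernel
theorem nc311 : part Pc3 8245261 = 8 := by decide +kernel
theorem nc312 : part Pc3 9347075 = 24 := by decide +kernel
theorem nc313 : part Pc3 14716939 = 8 := by decide +kernel
theorem nc314 : part Pc3 5902343 = 8 := by decide +kernel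
theorem nc315 : part Pc3 3416079 = 2 := by decide +kernel
theorem nc3 : total Pc3 = 552 := by
  simp only [total_eq, List.map_cons, List.map_nil, nc30, nc31, nc32, nc33, nc34, nc35, nc36, nc37, nc38, nc39, nc310, nc311, nc312, nc313, nc314, nc315]
  rfl
end CfH6.Lee
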