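import Cfsg.Agent.OD.Pre
import Cfsg.Agent.H6.Lec
/-! A count of minimal vectors. -/
set_option autoImplicit false
set_option maxRecDepth 100000
set_option Elab.async false
set_option linter.all false
namespace CfH6.Lee
open CfH6
def Pc2 (S a b : ℕ) : Bool := Nat.beq (a + b) 8
theorem nc20 : part Pc2 0 = 3584 := by decide +kernel
theorem nc21 : part Pc2 7221256 = 2048 := by decide +kernel
theorem nc22 : part Pc2 13938692 = 2048 := by decide +kernel
theorem nc23 : part Pc2 12222476 = 1024 := by decide +kernel
theorem nc24 : part Pc2 4845570 = 2048 := by decide +kernel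
theorem nc25 : part Pc2 2605066 = 1024 := by decide +kernel
theorem nc26 : part Pc2 10305542 = 1024 := by decide +kernel
theorem nc27 : part Pc2 15953934 = 512 := by decide +kernel
theorem nc28 : part Pc2 13062145 = 6144 := by decide +kernel
theorem nc29 : part Pc2 11100169 = 4608 := by decide +kernel
theorem nc210 : part Pc2 1302533 = 4608 := by decide +kernel
theorem nc211 : part Pc2 8245261 = 3584 := by decide +kernel
theorem nc212 : part Pc2 9347075 = 4608 := by decide +kernel
theorem nc213 : part Pc2 14716939 = 3584 := by decide +kernel
theorem nc214 : part Pc2 5902343 = 3584 := by decide +kernel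
theorem nc215 : part Pc2 3416079 = 3072 := by decide +kernel
theorem nc2 : total Pc2 = 47104 := by
  simp only [total_eq, List.map_cons, List.map_nil, nc20, nc21, nc22, nc23, nc24, nc25, nc26, nc27, nc28, nc29, nc210, nc211, nc212, nc213, nc214, nc215]
  rfl
end CfH6.Lee
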