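import Cfsg.Agent.OD.Pre
import Cfsg.Agent.H6.M24B
import Cfsg.Agent.H6.M24T5
set_option autoImplicit false
set_option maxRecDepth 100000
set_option linter.all false
namespace CfH6.M24O3
open CfH6
def s0 : List (List ℕ) := [[0], [1], [2]]
def t0 : List (List ℕ) := [[1], [0, 1, 0, 2, 0], [0, 2, 0, 1, 0, 2, 0, 1, 0, 1, 0, 2, 0, 2, 0, 1, 0, 2, 0, 1, 0]]
theorem cov0 : Covers (gensub (byW M24B.el t0) 3) (gensub (byW M24B.el s0) 3) 276 :=
  cov_step M24B.el M24B.hinv M24B.hrel s0 t0 3 4 (fun ev H => M24T5.covers ev H) (by decide +kernel)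
theorem top0 : gensub (byW M24B.el s0) 3 = ⊤ := (gensub_id M24B.el (by decide)).trans M24B.htop
theorem covT0 : Covers (gensub (byW M24B.el t0) 3) ⊤ 276 := cov0.top top0
end CfH6.M24O3
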