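import Cfsg.Agent.OD.Pre
import Cfsg.Agent.H6.M24A
import Cfsg.Agent.H6.M24K
import Cfsg.Agent.H6.M24O2
import Cfsg.Agent.H6.M24O3
/-! An abstract presentation: order and simplicity. -/
set_option autoImplicit false
set_option maxRecDepth 100000
namespace CfH6.M24G
open CfH6 MulAction
attribute [local instance] M24A.act

theorem stab : M24A.H = stabilizer M24B.G 0 ∧ M24A.H.index = 276 := M24A.stab M24O3.covT0

theorem card : Nat.card M24B.G = 244823040 := (M24A.top M24O2.finG).1

theorem base : ∀ g : M24B.G, (∀ b ∈ M24A.bs, g • b = b) → g = 1 := (M24A.top M24O2.finG).2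

theorem simple : IsSimpleGroup M24B.G := by
  have := M24O2.finG.1
  refine simple_of stab.1 (by rw [stab.2]; decide) (M24A.hmax stab.1 stab.2) base M24A.hbs fun M hM h => ?_
  exact top_of_index (eq_top_of_collapse M24B.el (n := 4) M24B.hinv M24B.hrel M24B.htop M
    (pow_words M24B.el h (by norm_num) (not_dvd_card card stab.2 (by decide)) 1 M24A.ex (M24A.hex base))
    (by decide +kernel) 1 fun ev' h1 h2 => M24K.covers ev' ⊥ h1 h2 forall_nil)

theorem nprime : ¬ (Nat.card M24B.G).Prime := by rw [card]; norm_num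

end CfH6.M24G
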