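import Cfsg.Agent.OD.Pre
import Cfsg.Agent.H6.M24G
import Cfsg.Agent.H6.Iso3
import Cfsg.Agent.H4.M11
/-! The abstract presentation is the Mathieu group `M₂₄`. -/
set_option autoImplicit false
set_option maxRecDepth 100000
namespace CfH6.M24I
open CfH6 Cfsg CfH4.Gol MulAction

def fr (l : List ℕ) (p : GolayPt) : List GolayPt :=
  if ix p ∈ l then [p] else ((List.range 24).filter (· ∉ l)).map pt

theorem fr_mem {σ : Equiv.Perm GolayPt} (l : List ℕ) (h : ∀ i ∈ l, σ (pt i) = pt i) (p : GolayPt) : σ p ∈ fr l p := by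
  have e : ∀ p, pt (ix p) = p ∧ ix p < 24 := by decide
  unfold fr
  split_ifs with hp
  · rw [List.mem_singleton, ← (e p).1]; exact h _ hp
  · refine List.mem_map.mpr ⟨ix (σ p), List.mem_filter.mpr ⟨List.mem_range.mpr (e _).2, ?_⟩, (e _).1⟩
    refine decide_eq_true fun hc => hp ?_
    have := h _ hc
    rw [(e _).1] at this
    rwa [← σ.injective this]

def c1 (p : GolayPt) : List GolayPt := if ix p = 10 ∨ ix p = 12 then fr [0, 1, 2, 3, 4, 5, 7] p else [p]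

theorem rigid {σ : Equiv.Perm GolayPt} (h : σ ∈ M24) (hf : ∀ i ∈ [0, 1, 2, 3, 4, 5, 7], σ (pt i) = pt i) : σ = 1 := by
  have h1 := CfH4.Gol.stage h (fr_mem _ hf) ([[0, 1, 3, 4, 5, 6, 16, 21], [0, 1, 3, 7, 5, 13, 19, 22], [0, 1, 4, 7, 5, 8, 15, 23], [0, 2, 3, 4, 5, 15, 20, 22], [0, 2, 3, 7, 5, 6, 8, 18], [0, 2, 4, 7, 5, 13, 14, 21], [0, 3, 4, 7, 5, 9, 11, 17], [1, 2, 3, 4, 5, 8, 11, 13], [1, 2, 3, 7, 5, 9, 15, 21], [1, 2, 4, 7, 5, 6, 17, 22], [1, 3, 4, 7, 5, 14, 18, 20], [2, 3, 4, 7, 5, 16, 19, 23]].map (·.map pt)) c1 (by decide +kernel)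
  have h2 := fr_mem (σ := σ) [0, 1, 2, 3, 4, 5, 6, 7, 8, 9, 11, 13, 14, 15, 16, 17, 18, 19, 20, 21, 22, 23] fun i hi => by
    have : ∀ i ∈ [0, 1, 2, 3, 4, 5, 6, 7, 8, 9, 11, 13, 14, 15, 16, 17, 18, 19, 20, 21, 22, 23], c1 (pt i) = [pt i] := by
      decide +kernel
    exact List.mem_singleton.1 (this i hi ▸ h1 (pt i))
  have h3 := CfH4.Gol.stage h h2 ([[10, 0, 1, 2, 13, 11, 14, 19], [12, 0, 1, 2, 13, 5, 6, 15]].map (·.map pt)) (fun p => [p]) (by decide +kernel)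
  exact Equiv.ext fun p => List.mem_singleton.1 (h3 p)

def Oc : List GolayPt := [0, 1, 2, 3, 4, 7, 10, 12].map pt
def c2 (p : GolayPt) : List GolayPt := if p ∈ Oc ∧ 5 ≤ ix p then [7, 10, 12].map pt else
  if p ∈ Oc then [p] else (List.range 24).map pt

theorem oct {σ : Equiv.Perm GolayPt} (h : σ ∈ M24) (hf : ∀ i ∈ [0, 1, 2, 3, 4], σ (pt i) = pt i) (p : GolayPt) :
    σ p ∈ c2 p := CfH4.Gol.stage h (fr_mem _ hf) [Oc] c2 (by decide +kernel) p

def e5 : Fin 5 ↪ GolayPt := ⟨fun i => pt i, by decide⟩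

theorem card_M24 : Nat.card M24 ≤ 244823040 := by
  set K := stabilizer M24 e5
  have hK : ∀ σ : K, ∀ i ∈ [0, 1, 2, 3, 4], σ.1.1 (pt i) = pt i := fun σ i hi =>
    DFunLike.congr_fun (mem_stabilizer_iff.mp σ.2) ⟨i, by simp at hi; omega⟩
  have h1 : K.index ≤ 5100480 := by
    rw [index_stabilizer]
    refine (Set.ncard_le_card _).trans ?_
    rw [Nat.card_eq_fintype_card, Fintype.card_embedding_eq]
    decide +kernel
  have a1 : ∀ p ∈ Oc, ∀ q ∈ c2 p, q ∈ Oc := by decide +kernel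
  let f : K → {y // y ∉ Oc} × {y // y ∈ c2 (pt 7)} := fun σ => (⟨σ.1.1 (pt 5), fun hc => by
    have := a1 _ hc _ (oct σ⁻¹.1.2 (hK σ⁻¹) _)
    rw [show σ⁻¹.1.1 (σ.1.1 (pt 5)) = pt 5 from σ.1.1.symm_apply_apply _] at this
    exact absurd this (by decide)⟩, ⟨σ.1.1 (pt 7), oct σ.1.2 (hK σ) _⟩)
  have hf : Function.Injective f := fun σ τ e => by
    refine inv_mul_eq_one.1 (Subtype.ext (Subtype.ext (rigid (σ⁻¹ * τ).1.2 fun i hi => ?_)))
    have b1 : τ.1.1 (pt 5) = σ.1.1 (pt 5) := (congrArg (fun x => x.1.1) e).symm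
    have b2 : τ.1.1 (pt 7) = σ.1.1 (pt 7) := (congrArg (fun x => x.2.1) e).symm
    by_cases h5 : i = 5
    · subst h5; exact σ.1.1.symm_apply_eq.mpr b1
    by_cases h7 : i = 7
    · subst h7; exact σ.1.1.symm_apply_eq.mpr b2
    exact hK (σ⁻¹ * τ) i (by simp at hi ⊢; omega)
  have h2 : Nat.card K ≤ 48 := (Nat.card_le_card_of_injective f hf).trans (by
    rw [Nat.card_eq_fintype_card]; decide +kernel)
  rw [← K.index_mul_card]
  exact Nat.mul_le_mul h1 h2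

def pX : Equiv.Perm GolayPt := perm [23, 22, 11, 15, 17, 9, 19, 13, 20, 5, 16, 2, 21, 7, 18, 3, 10, 4, 14, 6, 8, 12, 1, 0] (by decide +kernel)
def pU : Equiv.Perm GolayPt := perm [20, 6, 19, 21, 9, 23, 1, 10, 13, 4, 7, 17, 15, 8, 16, 12, 14, 11, 22, 2, 0, 3, 18, 5] (by decide +kernel)
def pV : Equiv.Perm GolayPt := perm [1, 0, 13, 21, 12, 23, 22, 19, 10, 14, 8, 17, 4, 2, 9, 16, 15, 11, 20, 7, 18, 3, 6, 5] (by decide +kernel)
def ev (i : ℕ) : Equiv.Perm GolayPt := [pX, pU * pV, pV * pU].getD i 1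

theorem iso : ∃ φ : M24B.G →* M24, Function.Bijective φ := by
  have := M24G.simple
  have := M24O2.finG.1
  obtain ⟨φ, hφ⟩ := M24B.hhom ev (by decide +kernel) (by decide +kernel)
  have mU : pU ∈ M24 := mem_M24 rfl (by decide +kernel)
  have mV : pV ∈ M24 := mem_M24 rfl (by decide +kernel)
  have h1 : ∀ g, φ g ∈ M24 := mem_of_gens M24B.htop φ M24.toSubmonoid fun x hx => by
    rw [hφ x hx]
    interval_cases x
    · exact mem_M24 rfl (by decide +kernel)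
    · exact mul_mem mU mV
    · exact mul_mem mV mU
  have h2 : Function.Injective φ := inj_of_simple φ (g := M24B.el 0) (by rw [hφ 0 (by decide)]; decide +kernel)
  exact ⟨φ.codRestrict _ h1, bij_of_inj _ (fun a b h => h2 (congrArg Subtype.val h))
    ⟨inferInstance, M24G.card ▸ card_M24⟩⟩

end CfH6.M24I
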