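import Cfsg.Agent.OD.Pre
import Cfsg.Agent.H6.LeN1
import Cfsg.Agent.H6.LeN2
import Cfsg.Agent.H6.LeN3
import Cfsg.Agent.H6.LeN4
import Cfsg.Agent.H6.LeN5
import Cfsg.Agent.H6.M24I
import Cfsg.Agent.OD.Helper6x54847660de
import Cfsg.Agent.OD.Helper6x767767a808
import Cfsg.Agent.OD.Helper6xdb59622d88
import Cfsg.Agent.OD.Helper6xe2e9f46c7e
import Cfsg.Agent.OD.Helper6xe93609b83e
/-! Upper bounds for the orders of stabilisers in `Co0`. -/
set_option autoImplicit false
set_option maxRecDepth 100000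
namespace CfH6.Lee
open Cfsg Cfsg.Spor CfH4.Gol MulAction
open scoped Pointwise

theorem card_orbit_mul {G α : Type*} [Group G] [MulAction G α] (L : Subgroup G) (b : α) :
    Nat.card L = (orbit L b).ncard * Nat.card (L ⊓ stabilizer G b : Subgroup G) := by
  rw [← index_stabilizer, ← (stabilizer L b).index_mul_card]
  congr 1
  refine Nat.card_congr ⟨fun x => ⟨x.1.1, x.1.2, x.2⟩, fun x => ⟨⟨x.1, x.2.1⟩, x.2.2⟩, fun _ => rfl, fun _ => rfl⟩

theorem fin_orbit {G α : Type*} [Group G] [MulAction G α] {L K : Subgroup G} {b : α} {n c : ℕ}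
    (hK : L ⊓ stabilizer G b ≤ K) (hc : Finite K ∧ Nat.card K ≤ c)
    (ho : (orbit L b).Finite ∧ (orbit L b).ncard ≤ n) : Finite L ∧ Nat.card L ≤ n * c := by
  have := hc.1
  have : Finite (L ⊓ stabilizer G b : Subgroup G) := Finite.of_injective _ (Subgroup.inclusion_injective hK)
  rw [card_orbit_mul L b]
  refine ⟨Nat.finite_of_card_ne_zero ?_, Nat.mul_le_mul ho.2 ((Subgroup.card_le_of_le hK).trans hc.2)⟩
  rw [card_orbit_mul L b]
  exact Nat.mul_ne_zero ((Set.ncard_pos ho.1).mpr ⟨b, mem_orbit_self b⟩).ne' Nat.card_pos.ne'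

theorem card_K5 : Nat.card (stabilizer M24 M24I.e5) ≤ 48 := by
  set K := stabilizer M24 M24I.e5
  have hK : ∀ σ : K, ∀ i ∈ [0, 1, 2, 3, 4], σ.1.1 (pt i) = pt i := fun σ i hi =>
    DFunLike.congr_fun (mem_stabilizer_iff.mp σ.2) ⟨i, by simp at hi; omega⟩
  have a1 : ∀ p ∈ M24I.Oc, ∀ q ∈ M24I.c2 p, q ∈ M24I.Oc := by decide +kernel
  let f : K → {y // y ∉ M24I.Oc} × {y // y ∈ M24I.c2 (pt 7)} := fun σ => (⟨σ.1.1 (pt 5), fun hc => by
    have := a1 _ hc _ (M24I.oct σ⁻¹.1.2 (hK σ⁻¹) _)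
    rw [show σ⁻¹.1.1 (σ.1.1 (pt 5)) = pt 5 from σ.1.1.symm_apply_apply _] at this
    exact absurd this (by decide)⟩, ⟨σ.1.1 (pt 7), M24I.oct σ.1.2 (hK σ) _⟩)
  have hf : Function.Injective f := fun σ τ e => by
    refine inv_mul_eq_one.1 (Subtype.ext (Subtype.ext (M24I.rigid (σ⁻¹ * τ).1.2 fun i hi => ?_)))
    have b1 : τ.1.1 (pt 5) = σ.1.1 (pt 5) := (congrArg (fun x => x.1.1) e).symm
    have b2 : τ.1.1 (pt 7) = σ.1.1 (pt 7) := (congrArg (fun x => x.2.1) e).symm
    by_cases h5 : i = 5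
    · subst h5; exact σ.1.1.symm_apply_eq.mpr b1
    by_cases h7 : i = 7
    · subst h7; exact σ.1.1.symm_apply_eq.mpr b2
    exact hK (σ⁻¹ * τ) i (by simp at hi ⊢; omega)
  exact (Nat.card_le_card_of_injective f hf).trans (by rw [Nat.card_eq_fintype_card]; decide +kernel)

def tau : M24 := ⟨perm [0, 1, 2, 3, 23, 7, 18, 5, 8, 21, 17, 20, 14, 22, 12, 15, 16, 10, 6, 19, 11, 9, 13, 4] (by decide +kernel), mem_M24 rfl (by decide +kernel)⟩

theorem card_M22 : Finite M22 ∧ Nat.card M22 ≤ 443520 := by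
  refine ⟨inferInstance, ?_⟩
  have hle : M22 ≤ M24 := fun _ h => h.1.1
  rw [← Nat.card_congr (Subgroup.subgroupOfEquivOfLe hle).toEquiv]
  have h1 : Nat.card (stabilizer M24 (tau • M24I.e5)) ≤ 48 := by
    exact (Nat.card_congr (stabilizerEquivStabilizer (g := tau) (a := M24I.e5) rfl).toEquiv).ge.trans card_K5
  refine (fin_orbit (n := 9240) inf_le_right ⟨inferInstance, h1⟩ ⟨Set.toFinite _, ?_⟩).2
  let T : Finset (GolayPt × GolayPt × GolayPt) := Finset.univ.filter fun p =>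
    [none, some 0, p.1, p.2.1, p.2.2].Nodup
  have e0 : (tau • M24I.e5) 0 = some 0 ∧ (tau • M24I.e5) 4 = none := by decide +kernel
  have a : ∀ f ∈ orbit (M22.subgroupOf M24) (tau • M24I.e5), f 0 = some 0 ∧ f 4 = none := by
    rintro _ ⟨g, rfl⟩
    exact ⟨(congrArg g.1.1 e0.1).trans g.2.2, (congrArg g.1.1 e0.2).trans g.2.1.2⟩
  rw [← show T.card = 9240 by decide +kernel, ← Set.ncard_coe_finset]
  refine Set.ncard_le_ncard_of_injOn (fun f => (f 1, f 2, f 3)) (fun f hf => ?_) (fun f hf f' hf' e => ?_)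
  · refine Finset.mem_coe.mpr (Finset.mem_filter.mpr ⟨Finset.mem_univ _, ?_⟩)
    rw [← (a f hf).1, ← (a f hf).2]
    exact List.Nodup.map (l := [4, 0, 1, 2, 3]) f.injective (by decide)
  · simp only [Prod.mk.injEq] at e
    ext1 i
    fin_cases i
    exacts [(a f hf).1.trans (a f' hf').1.symm, e.1, e.2.1, e.2.2, (a f hf).2.trans (a f' hf').2.symm]

theorem count' (P : ℕ → ℕ → ℕ → Bool) (T : Finset V) (h : ∀ x ∈ T, x ∈ leechLattice ∧ sqNorm x = 32 ∧
    ∀ S a b : ℕ, (S : ℤ) = ∑ i, x i + 120 → (a : ℤ) = x none + 5 → (b : ℤ) = x (some 0) + 5 → P S a b = true) :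
    T.card ≤ total P := count P T fun x hx => by
  obtain ⟨h1, h2, h3⟩ := h x hx
  have b : ∀ p, -5 ≤ x p := fun p => by
    have b3 : x p ^ 2 ≤ 32 :=
      h2 ▸ Finset.single_le_sum (f := fun i => x i ^ 2) (fun _ _ => sq_nonneg _) (Finset.mem_univ p)
    nlinarith
  have b6 : ∑ _ : GolayPt, (-5 : ℤ) ≤ ∑ i, x i := Finset.sum_le_sum fun i _ => b i
  rw [show ∑ _ : GolayPt, (-5 : ℤ) = -120 by decide] at b6
  have := b none
  have := b (some 0)
  exact ⟨h1, h2, h3 _ _ _ (by omega) (by omega) (by omega)⟩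

theorem orb_bd {P : ℕ → ℕ → ℕ → Bool} {n c : ℕ} (hn : total P = n) {H K : Subgroup (Equiv.Perm Λ)} (hH : H ≤ Co0)
    (x : Λ) (h0 : sqNorm x.1 = 32) (hK : H ⊓ stabilizer _ x ≤ K) (hc : Finite K ∧ Nat.card K ≤ c)
    (hP : ∀ g ∈ H, ∀ S a b : ℕ, (S : ℤ) = ∑ i, (g x).1 i + 120 → (a : ℤ) = (g x).1 none + 5 →
      (b : ℤ) = (g x).1 (some 0) + 5 → P S a b = true) : Finite H ∧ Nat.card H ≤ n * c := by
  have a : ∀ T : Finset Λ, ↑T ⊆ orbit H x → T.card ≤ n := fun T hT => by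
    rw [← hn, ← Finset.card_map (Function.Embedding.subtype _)]
    refine count' P _ fun y hy => ?_
    obtain ⟨y, h, rfl⟩ := Finset.mem_map.mp hy
    obtain ⟨g, rfl⟩ := hT h
    exact ⟨(g.1 x).2, ((hH g.2).2 x).trans h0, hP g.1 g.2⟩
  have b : (orbit H x).Finite := by
    by_contra hc
    obtain ⟨T, h1, h2⟩ := Set.Infinite.exists_subset_card_eq hc (n + 1)
    have := a T h1
    omega
  exact fin_orbit hK hc ⟨b, by rw [Set.ncard_eq_toFinset_card _ b]; exact a _ (by simp)⟩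

theorem dotV (x : V) : dotInt x vecV = -(∑ i, x i) - 4 * x none := by
  have : ∀ p, vecV p = -1 - if p = none then 4 else 0 := by decide
  simp only [dotInt, this, mul_sub, mul_ite, mul_zero, Finset.sum_sub_distrib, Finset.sum_ite_eq', Finset.mem_univ,
    if_true, mul_neg, mul_one, Finset.sum_neg_distrib]
  ring

theorem dotU (x : V) : dotInt x vecU = 4 * x none + 4 * x (some 0) := by
  have : ∀ p, vecU p = (if p = none then 4 else 0) + if p = some 0 then 4 else 0 := by decide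
  simp only [dotInt, this, mul_add, mul_ite, mul_zero, Finset.sum_add_distrib, Finset.sum_ite_eq', Finset.mem_univ,
    if_true]
  ring

theorem dotU' (x : V) : dotInt x vecU' = 4 * x none - 4 * x (some 0) := by
  have : ∀ p, vecU' p = (if p = none then 4 else 0) - if p = some 0 then 4 else 0 := by decide
  simp only [dotInt, this, mul_sub, mul_ite, mul_zero, Finset.sum_sub_distrib, Finset.sum_ite_eq', Finset.mem_univ,
    if_true]
  ring

theorem dot_fix {g : Equiv.Perm Λ} (hg : g ∈ Co0) {y : Λ} (h : g y = y) (x : Λ) : dotInt (g x).1 y.1 = dotInt x.1 y.1 := by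
  rw [← dot_pres hg x y, h]

def vQ (k : GolayPt) : V := fun i => if i = k then -3 else 1

theorem isQ {y : V} (h1 : y ∈ leechLattice) (h2 : sqNorm y = 32) (h3 : y none = 1) (h4 : y (some 0) = 1)
    (h5 : ∑ i, y i = 20) : ∃ k, k ≠ none ∧ y = vQ k := by
  by_contra hc
  let T : Finset V := (Finset.univ.filter fun k => k ≠ none ∧ k ≠ some 0).image vQ
  have a : y ∉ T := fun h => by
    obtain ⟨k, hk, rfl⟩ := Finset.mem_image.mp h
    exact hc ⟨k, (Finset.mem_filter.mp hk).2.1, rfl⟩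
  have b : ∀ k, k ≠ none ∧ k ≠ some 0 → ChkL (vQ k) ∧ sqNorm (vQ k) = 32 ∧ vQ k none = 1 ∧ vQ k (some 0) = 1 ∧
    ∑ i, vQ k i = 20 := by decide +kernel
  have c := count' Pq (insert y T) fun x hx => by
    have : x ∈ leechLattice ∧ sqNorm x = 32 ∧ x none = 1 ∧ x (some 0) = 1 ∧ ∑ i, x i = 20 := by
      rcases Finset.mem_insert.mp hx with rfl | h
      · exact ⟨h1, h2, h3, h4, h5⟩
      · obtain ⟨k, hk, rfl⟩ := Finset.mem_image.mp h
        exact (b k (Finset.mem_filter.mp hk).2).imp_left ChkL.mem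
    refine ⟨this.1, this.2.1, fun S a b _ _ _ => ?_⟩
    simp only [Pq, Bool.and_eq_true, Nat.beq_eq]
    omega
  rw [Finset.card_insert_of_notMem a, nq, show T.card = 22 by decide +kernel] at c
  omega

theorem perm_of (g : Co0) (σ : GolayPt → GolayPt) (h : ∀ k, g.1 (e8 k) = e8 (σ k)) : ∃ π ∈ M24, ⇑π = σ := by
  have i8 : ∀ k l, v8 k = v8 l → k = l := by decide +kernel
  have inj : Function.Injective σ := fun k l e =>
    i8 k l (congrArg Subtype.val (g.1.injective (show g.1 (e8 k) = g.1 (e8 l) by rw [h, h, e])))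
  let π := Equiv.ofBijective σ (Finite.injective_iff_bijective.mp inj)
  refine ⟨π, ?_, rfl⟩
  have a : ∀ (x : Λ) i, (g.1 x).1 i = x.1 (π.symm i) := fun x i => by
    obtain ⟨l, rfl⟩ := π.surjective i
    have := expand g x (σ l)
    simp only [h] at this
    simp only [e8, v8, inj.eq_iff, ite_mul, zero_mul, Finset.sum_ite_eq, Finset.mem_univ, if_true] at this
    rw [π.symm_apply_apply]
    change (g.1 x).1 (σ l) = _
    omega
  have b : ∀ k : Fin 12, bas k ∘ π.symm ∈ golayCode := fun k => by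
    obtain ⟨m, w, hw, c, -⟩ := mem_iff.mp (g.1 ⟨gb k, ChkL.mem (by revert k; decide +kernel)⟩).2
    simp only [a, gb] at c
    have d : ∀ a b : ZMod 2, (a.val : ℤ) % 2 = b.val % 2 → a = b := by decide
    by_cases hm : m % 4 = 0
    · rwa [show bas k ∘ π.symm = w from funext fun i => d _ _ (by have := c i; dsimp only [Function.comp]; omega)]
    · rw [show bas k ∘ π.symm = w + 1 from funext fun i => d _ _ (by
        have := c i
        have e := val_add2 (w i) 1
        rw [show ((1 : ZMod 2).val : ℤ) = 1 from rfl] at e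
        dsimp only [Function.comp, Pi.add_apply, Pi.one_apply]; omega)]
      exact add_mem hw one_mem
  have c : π • supports (golayCode : Set (GolayPt → ZMod 2)) ⊆ supports golayCode := by
    rintro _ ⟨_, ⟨u, hu, rfl⟩, rfl⟩
    refine ⟨u ∘ π.symm, mem_of_sum b (c := fun i => u (pt i)) fun y => code_eq hu _, ?_⟩
    exact (smul_support π⁻¹ u).symm
  exact mem_stabilizer_iff.mpr (Set.eq_of_subset_of_ncard_le c (Set.ncard_smul_set _ _).ge)

/-- the automorphisms fixing the three vectors -/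
def St : Subgroup (Equiv.Perm Λ) := HS ⊓ stabilizer _ leechU

theorem St_perm (g : St) : ∃ π ∈ M22, ∀ k, g.1 (e8 k) = e8 (π k) := by
  obtain ⟨g, ⟨⟨hg, hV⟩, hU'⟩, hU⟩ := g
  replace hV : hom ⟨g, hg⟩ leechV = leechV := hV
  replace hU : hom ⟨g, hg⟩ leechU = leechU := hU
  replace hU' : hom ⟨g, hg⟩ leechU' = leechU' := hU'
  have h1 : hom ⟨g, hg⟩ (e8 none) = e8 none := by
    rw [show e8 none = leechU + leechU' from Subtype.ext (by decide +kernel), map_add, hU, hU']
  have h2 : hom ⟨g, hg⟩ (e8 (some 0)) = e8 (some 0) := by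
    rw [show e8 (some 0) = leechU - leechU' from Subtype.ext (by decide +kernel), map_sub, hU, hU']
  have mQ : ∀ k, vQ k ∈ leechLattice := fun k => ChkL.mem (by revert k; decide +kernel)
  have eQ : ∀ k, k ≠ none → e8 k = -(leechV + leechV + e8 none + ⟨vQ k, mQ k⟩ + ⟨vQ k, mQ k⟩) := fun k hk =>
    Subtype.ext (show v8 k = -(vecV + vecV + v8 none + vQ k + vQ k) by clear * - hk; revert k; decide +kernel)
  have a : ∀ k, ∃ j, g (e8 k) = e8 j ∧ (k = none → j = none) ∧ (k = some 0 → j = some 0) := fun k => by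
    by_cases k1 : k = none
    · exact ⟨k, k1 ▸ h1, id, id⟩
    by_cases k2 : k = some 0
    · exact ⟨k, k2 ▸ h2, id, id⟩
    have b : ∀ k, k ≠ none → k ≠ some 0 → sqNorm (vQ k) = 32 ∧ dotInt (vQ k) vecV = -24 ∧ dotInt (vQ k) vecU = 8 ∧
      dotInt (vQ k) vecU' = 0 := by decide +kernel
    obtain ⟨b1, b2, b3, b4⟩ := b k k1 k2
    have c2 := (dotV _).symm.trans ((dot_fix hg hV ⟨vQ k, mQ k⟩).trans b2)
    have c3 := (dotU _).symm.trans ((dot_fix hg hU ⟨vQ k, mQ k⟩).trans b3)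
    have c4 := (dotU' _).symm.trans ((dot_fix hg hU' ⟨vQ k, mQ k⟩).trans b4)
    obtain ⟨j, hj, e⟩ := isQ (g ⟨vQ k, mQ k⟩).2 ((hg.2 _).trans b1) (by omega) (by omega) (by omega)
    refine ⟨j, ?_, fun h => absurd h k1, fun h => absurd h k2⟩
    have e' : hom ⟨g, hg⟩ ⟨vQ k, mQ k⟩ = ⟨vQ j, mQ j⟩ := Subtype.ext e
    change hom ⟨g, hg⟩ _ = _
    rw [eQ k k1, eQ j hj, map_neg, map_add, map_add, map_add, map_add, hV, h1, e']
  choose σ h3 h4 h5 using a
  obtain ⟨π, h6, rfl⟩ := perm_of ⟨g, hg⟩ σ h3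
  exact ⟨π, ⟨⟨h6, h4 _ rfl⟩, h5 _ rfl⟩, h3⟩

theorem card_St : Finite St ∧ Nat.card St ≤ 443520 := by
  choose π h1 h2 using St_perm
  have hf : Function.Injective fun g => (⟨π g, h1 g⟩ : M22) := fun g h e => Subtype.ext (congrArg (fun x : Co0 => x.1)
    (ext8 (g := ⟨g.1, g.2.1.1.1⟩) (h := ⟨h.1, h.2.1.1.1⟩) fun j => by
      rw [h2, h2, show π g = π h from congrArg Subtype.val e]))
  exact ⟨Finite.of_injective _ hf, (Nat.card_le_card_of_injective _ hf).trans card_M22.2⟩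

theorem card_HS : Finite HS ∧ Nat.card HS ≤ 44352000 :=
  orb_bd (H := HS) (K := St) nhs (fun _ h => h.1.1) leechU (by decide +kernel) le_rfl card_St fun g hg S a b _ _ _ => by
    have c1 := (dotV _).symm.trans ((dot_fix hg.1.1 hg.1.2 leechU).trans (show _ = -24 by decide +kernel))
    have c2 := (dotU' _).symm.trans ((dot_fix hg.1.1 hg.2 leechU).trans (show _ = 0 by decide +kernel))
    simp only [Phs, Bool.and_eq_true, Nat.beq_eq]
    omega

theorem card_McL : Finite McL ∧ Nat.card McL ≤ 898128000 :=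
  orb_bd (H := McL) (K := St) nmc (fun _ h => h.1.1) leechU' (by decide +kernel) (fun _ h => ⟨⟨h.1.1, h.2⟩, h.1.2⟩) card_St
    fun g hg S a b _ _ _ => by
    have c1 := (dotV _).symm.trans ((dot_fix hg.1.1 hg.1.2 leechU').trans (show _ = -16 by decide +kernel))
    have c2 := (dotU _).symm.trans ((dot_fix hg.1.1 hg.2 leechU').trans (show _ = 0 by decide +kernel))
    simp only [Pmc, Bool.and_eq_true, Nat.beq_eq]
    omega

theorem card_Co3 : Finite Co3 ∧ Nat.card Co3 ≤ 495766656000 :=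
  orb_bd (H := Co3) (K := McL) nc3 (fun _ h => h.1) leechU (by decide +kernel) le_rfl card_McL fun g hg S a b _ _ _ => by
    have c1 := (dotV _).symm.trans ((dot_fix hg.1 hg.2 leechU).trans (show _ = -24 by decide +kernel))
    simp only [Pc3, Nat.beq_eq]
    omega

theorem card_Co2 : Finite Co2 ∧ Nat.card Co2 ≤ 42305421312000 :=
  orb_bd (H := Co2) (K := McL) nc2 (fun _ h => h.1) (-(leechU + leechV)) (by decide +kernel) (fun g h => ⟨⟨h.1.1, by
    have h1 : hom ⟨g, h.1.1⟩ _ = _ := h.2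
    have h2 : hom ⟨g, h.1.1⟩ _ = _ := h.1.2
    rw [map_neg, map_add, h2, neg_inj, add_right_inj] at h1
    exact h1⟩, h.1.2⟩) card_McL fun g hg S a b _ _ _ => by
    have c1 := (dotU _).symm.trans ((dot_fix hg.1 hg.2 (-(leechU + leechV))).trans (show _ = -8 by decide +kernel))
    simp only [Pc2, Nat.beq_eq]
    omega

end CfH6.Lee
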