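import Cfsg.Agent.OD.Pre
import Cfsg.Agent.H6.Led
import Cfsg.Agent.H6.LeM1
import Cfsg.Agent.H6.LeM2
import Cfsg.Agent.H6.LeM3
/-! Homomorphisms from presented groups to `Co0`. -/
set_option autoImplicit false
set_option maxRecDepth 100000
set_option Elab.async false
set_option linter.all false
namespace CfH6.Lee
open CfH6
open Cfsg Cfsg.Spor CfH4.Gol MulAction

theorem lget_mem' {ms : List ℕ} {x : ℕ} (h : x < ms.length) : lget ms 0 x ∈ ms := by
  induction ms generalizing x with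
  | nil => exact absurd h (Nat.not_lt_zero _)
  | cons a l ih => cases x with
    | zero => exact List.mem_cons_self
    | succ x => exact List.mem_cons_of_mem _ (ih (Nat.lt_of_succ_lt_succ h))

theorem lift_hom {G : Type*} [Group G] {el : ℕ → G} {k : ℕ} {il : List ℕ} {rels : List (List ℕ)}
    (hhom : ∀ ev : ℕ → Co0, (∀ x < k, ev (il.getD x 0) = (ev x)⁻¹) → (∀ r ∈ rels, evw ev r = 1) →
      ∃ ρ : G →* Co0, ∀ x < k, ρ (el x) = ev x) (ms : List ℕ) (hs : ∀ X ∈ ms, ∃ g, Φ g = sem X)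
    (h : (Nat.beq ms.length k && ((List.range k).all fun a => PM.okb (lget ms 0 a)) &&
      (((List.range k).map fun x => [x, il.getD x 0]) ++ rels).all fun w => allLt k w && chkM PM.mm PM.one ms w PM.one) =
      true) : ∃ ρ : G →* Co0, ∀ x < k, Φ (ρ (el x)) = sem (lget ms 0 x) := by
  simp only [Bool.and_eq_true, Nat.beq_eq] at h
  have h1 : ∀ x < k, ∃ g, Φ g = sem (lget ms 0 x) := fun x hx => hs _ (lget_mem' (h.1.1 ▸ hx))
  have h2 := fun r hr => List.all_eq_true.mp h.2 r hr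
  simp only [Bool.and_eq_true] at h2
  have h3 := fun r hr => Φ_inj ((D.liftW (lget_all h.1.2) h1 (h2 r hr).1 (Nat.eq_of_beq_eq_true (h2 r hr).2)).trans
    (D.sem1.trans Φ.map_one.symm))
  obtain ⟨ρ, hρ⟩ := hhom _ (inv_of_rels fun r hr => h3 r (List.mem_append_left _ hr))
    fun r hr => h3 r (List.mem_append_right _ hr)
  exact ⟨ρ, fun x hx => by rw [hρ x hx, liftS_spec (h1 x hx)]⟩

/-- the image of a presented simple group fills a stabiliser -/
theorem range_eq {G : Type*} [Group G] [Finite G] [IsSimpleGroup G] {el : ℕ → G} {k : ℕ} (htop : gensub el k = ⊤)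
    {ρ : G →* Co0} {ms : List ℕ} (hρ : ∀ x < k, Φ (ρ (el x)) = sem (lget ms 0 x)) (H : Subgroup (Equiv.Perm Λ))
    (vs : List Λ) (hH : ∀ g ∈ Co0, (∀ v ∈ vs, g v = v) → g ∈ H) (hc : Finite H ∧ Nat.card H ≤ Nat.card G)
    (h : 0 < k ∧ sem (lget ms 0 0) ≠ 1 ∧ ∀ x < k, ∀ v ∈ vs, ∀ i, mv (lget ms 0 x) v.1 i = 8 * v.1 i) :
    ∃ φ : G ≃* H, ∀ g, (φ g).1 = (ρ g).1 := by
  have h1 : ∀ g, Co0.subtype.comp ρ g ∈ H := mem_of_gens htop _ H.toSubmonoid fun x hx =>
    hH _ (ρ _).2 fun v hv => act (hρ x hx) (h.2.2 x hx v hv)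
  have h2 : Function.Injective ρ := inj_of_simple ρ (g := el 0) fun hc => h.2.1 (by rw [← hρ 0 h.1, hc, map_one])
  exact ⟨MulEquiv.ofBijective ((Co0.subtype.comp ρ).codRestrict _ h1)
    (bij_of_inj _ (fun a b e => h2 (Subtype.ext (congrArg (fun x : H => x.1) e))) hc), fun _ => rfl⟩

end CfH6.Lee
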