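import Cfsg.Agent.OD.Pre
import Cfsg.Agent.H6.LeH
import Cfsg.Agent.H6.HiG
/-! The presented group is the stabiliser `HS`. -/
set_option autoImplicit false
set_option maxRecDepth 100000
set_option Elab.async false
set_option linter.all false
namespace CfH6.Lee
open CfH6
open Cfsg Cfsg.Spor CfH4.Gol MulAction

def msHS : List ℕ := [ma, mb, mc, md, me, mh]

theorem homHS : ∃ ρ : HiB.G →* Co0, ∀ x < 6, Φ (ρ (HiB.el x)) = sem (lget msHS 0 x) :=
  lift_hom HiB.hhom msHS (by simp only [msHS, List.forall_mem_cons, xa, xb, xc, xd, xe, xh, true_and]; exact forall_nil)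
    (by decide +kernel)

theorem isoHS' : ∃ φ : HiB.G ≃* HS, ∀ x < 6, ∃ g : Co0, g.1 = (φ (HiB.el x)).1 ∧ Φ g = sem (lget msHS 0 x) := by
  have := HiG.simple
  have := HiO.finG.1
  obtain ⟨ρ, hρ⟩ := homHS
  obtain ⟨φ, hφ⟩ := range_eq HiB.htop hρ HS [leechV, leechU'] (fun g hg h => ⟨⟨hg, h _ (by simp)⟩, h _ (by simp)⟩) ⟨card_HS.1, HiG.card ▸ card_HS.2⟩
    (by decide +kernel)
  exact ⟨φ, fun x hx => ⟨_, (hφ _).symm, hρ x hx⟩⟩

theorem isoHS : IsoHS HiB.G := ⟨isoHS'.choose⟩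

theorem cardHS : Nat.card HS = 44352000 := (Nat.card_congr isoHS'.choose.toEquiv).symm.trans HiG.card

theorem simpleHS : IsSimpleGroup HS := have := HiG.simple; isoHS'.choose.symm.isSimpleGroup
end CfH6.Lee
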