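import Cfsg.Agent.OD.Pre
import Cfsg.Agent.H6.DF
/-! Removing a possible central subgroup of order three. -/
set_option autoImplicit false
namespace CfH6.D
open MulAction

section
variable {N : Type*} [Group N]

theorem sq_comm_of_card {Z : Subgroup N} [hZ : Z.Normal] [Finite Z] (h : Nat.card Z ≤ 3) (g : N) {z : N}
    (hz : z ∈ Z) : g * g * z = z * (g * g) := by
  classical
  by_contra hc
  have h1 := hZ.conj_mem z hz g
  have h2 := hZ.conj_mem _ h1 g
  have a1 : z ≠ 1 := fun e => hc (by simp [e])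
  have a2 : z ≠ g * (g * z * g⁻¹) * g⁻¹ := fun e => hc (by
    conv_rhs => rw [e]
    group)
  have a3 : z ≠ g * z * g⁻¹ := fun e => a2 (by rw [← e, ← e])
  have := Fintype.ofFinite Z
  have h3 := Finset.card_le_univ ({1, ⟨z, hz⟩, ⟨_, h1⟩, ⟨_, h2⟩} : Finset Z)
  rw [← Nat.card_eq_fintype_card, Finset.card_insert_of_notMem, Finset.card_insert_of_notMem,
    Finset.card_insert_of_notMem, Finset.card_singleton] at h3
  · omega
  · rw [Finset.mem_singleton, Subtype.mk.injEq]
    exact fun e => a3 (by simpa [mul_assoc] using congrArg (fun x => g⁻¹ * x * g) e)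
  · simp [a2, a3]
  · simp [Subtype.ext_iff, a1.symm, eq_comm (a := (1 : N)), a1]

theorem comm_of_small {Z : Subgroup N} [hZ : Z.Normal] [Finite Z] (h : Nat.card Z ≤ 3) (u a b v : N)
    (h1 : (a * a * (u * u))⁻¹ * (u * u * (a * a)) ∈ Z) (h2 : (b * b * (u * u))⁻¹ * (u * u * (b * b)) ∈ Z)
    (h3 : (a * a * (b * b))⁻¹ * (v * (b * b * (a * a))) ∈ Z) : u * u * v = v * (u * u) := by
  have k := fun g z hz => sq_comm_of_card (Z := Z) h g (z := z) hz
  have ku := k u
  have ka := k a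
  have kb := k b
  generalize u * u = U at *
  generalize a * a = A at *
  generalize b * b = B at *
  obtain ⟨x, hx, e1⟩ : ∃ x ∈ Z, U * A = A * U * x := ⟨_, h1, by group⟩
  obtain ⟨y, hy, e2⟩ : ∃ y ∈ Z, U * B = B * U * y := ⟨_, h2, by group⟩
  obtain ⟨z, hz, e3⟩ : ∃ z ∈ Z, v * (B * A) = A * B * z := ⟨_, h3, by group⟩
  have xy : x * y = y * x := by
    have : y = U⁻¹ * B⁻¹ * U * B := by rw [mul_assoc (U⁻¹ * B⁻¹), e2]; group
    have c1 : Commute x U := (ku x hx).symm
    have c2 : Commute x B := (kb x hx).symm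
    rw [this]
    exact ((c1.inv_right.mul_right c2.inv_right).mul_right c1).mul_right c2
  have f1 : U * (A * B) = A * B * U * (y * x) := by
    rw [← mul_assoc, e1, mul_assoc, ← kb x hx, ← mul_assoc, mul_assoc A, e2]; group
  have f2 : U * (B * A) = B * A * U * (y * x) := by
    rw [← mul_assoc, e2, mul_assoc, ← ka y hy, ← mul_assoc, mul_assoc B, e1, ← xy]; group
  have zc : z * (U * (y * x)) = U * (y * x) * z := by
    have c0 : ∀ w ∈ Z, ∀ C : N, (∀ z ∈ Z, C * z = z * C) → w = U⁻¹ * C⁻¹ * U * C → Commute z w := fun w _ C hC e => by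
      have c1 : Commute z U := (ku z hz).symm
      have c2 : Commute z C := (hC z hz).symm
      rw [e]
      exact ((c1.inv_right.mul_right c2.inv_right).mul_right c1).mul_right c2
    exact Commute.mul_right (ku z hz).symm (Commute.mul_right
      (c0 y hy B kb (by rw [mul_assoc (U⁻¹ * B⁻¹), e2]; group)) (c0 x hx A ka (by rw [mul_assoc (U⁻¹ * A⁻¹), e1]; group)))
  apply mul_right_cancel (b := B * A)
  rw [mul_assoc, e3, ← mul_assoc, f1, mul_assoc v, f2, mul_assoc (B * A), ← mul_assoc v, e3, mul_assoc (A * B) z, zc]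
  group

variable [MulAction N ℕ] {tr : ℕ → ℕ → ℕ} {cd : ℕ → N} {m : ℕ}

theorem Trs.word (T : Trs tr cd m) (w : List ℕ) {p : ℕ} (hp : p < m) :
    trW tr w p = evw cd w • p ∧ evw cd w • p < m := by
  induction w with
  | nil => exact ⟨(one_smul _ _).symm, by simpa using hp⟩
  | cons a w ih =>
    rw [evw_cons, mul_smul]
    change force (trW tr w p) (tr a) = _ ∧ _
    rw [force_eq, ih.1]
    exact T a _ ih.2

noncomputable def eqA (tr : ℕ → ℕ → ℕ) (u v : List ℕ) (p : ℕ) : ℕ := Nat.xor (trW tr u p) (trW tr v p)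

noncomputable def chkK (tr : ℕ → ℕ → ℕ) (u v : List ℕ) (a b p : ℕ) : ℕ := force p fun p =>
  Nat.lor (eqA tr (u ++ u ++ [a, a]) ([a, a] ++ u ++ u) p) (Nat.lor (eqA tr (u ++ u ++ [b, b]) ([b, b] ++ u ++ u) p)
    (eqA tr (v ++ [b, b, a, a]) [a, a, b, b] p))

theorem kill3 (T : Trs tr cd m) (hm : ∀ g : N, ∀ p < m, g • p < m) {bs : List ℕ} {n : ℕ}
    (low : Low (⊤ : Subgroup N) bs n) (hf : Finite N ∧ Nat.card N ≤ n * 3) (hb : (allLt m bs && Nat.blt 0 n) = true)
    (u v : List ℕ) (a b : ℕ) (h : Rng (chkK tr u v a b) 0 m) : evw cd (u ++ u ++ v) = evw cd (v ++ u ++ u) := by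
  have := hf.1
  rw [Bool.and_eq_true, Nat.blt_eq] at hb
  let Z : Subgroup N :=
    { carrier := {g | ∀ p < m, g • p = p}
      one_mem' := fun p _ => one_smul _ _
      mul_mem' := fun {a b} ha hb p hp => by rw [mul_smul, hb p hp, ha p hp]
      inv_mem' := fun {a} ha p hp => by rw [inv_smul_eq_iff, ha p hp] }
  have hZ : Z.Normal := ⟨fun z hz g p hp => by rw [mul_smul, mul_smul, hz _ (hm _ p hp), smul_inv_smul]⟩
  have h1 := (low ⊤ le_rfl inferInstance).trans (Subgroup.card_top.le.trans hf.2)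
  have h2 : Nat.card Z ≤ 3 := (Subgroup.card_le_of_le (show Z ≤ ⊤ ⊓ fixer N bs from fun z hz =>
    ⟨trivial, fun b hb' => hz b (allLt_sound hb.1 b hb')⟩)).trans (Nat.le_of_mul_le_mul_left h1 hb.2)
  have k : ∀ u v, (∀ p < m, eqA tr u v p = 0) → (evw cd v)⁻¹ * evw cd u ∈ Z := fun u v h p hp => by
    rw [mul_smul, ← (T.word u hp).1, xor_zero' (h p hp), (T.word v hp).1, inv_smul_smul]
  have h' : ∀ p < m, _ := fun p hp => by
    have := h p (Nat.zero_le _) hp
    rw [chkK, force_eq] at this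
    exact (⟨(lor_zero this).1, lor_zero (lor_zero this).2⟩ : _ ∧ _)
  have := comm_of_small h2 (evw cd u) (cd a) (cd b) (evw cd v)
    (by simpa [mul_assoc] using k _ _ fun p hp => (h' p hp).1)
    (by simpa [mul_assoc] using k _ _ fun p hp => (h' p hp).2.1)
    (by simpa [mul_assoc] using k _ _ fun p hp => (h' p hp).2.2)
  simpa [mul_assoc] using this

omit [MulAction N ℕ] in
theorem evw_succ {el : ℕ → N} {nc : ℕ} (h : ∀ x < nc, cd (x + 1) = el x) (w : List ℕ) (hw : allLt nc w = true) :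
    evw cd (w.map Nat.succ) = evw el w := by
  rw [← evw_congr h (allLt_sound hw)]
  simp [evw, List.map_map, Function.comp_def]

omit [MulAction N ℕ] in
theorem rel_of_eq {el : ℕ → N} {nc : ℕ} {il : List ℕ} (hinv : ∀ x < nc, el (il.getD x 0) = (el x)⁻¹)
    (h : ∀ x < nc, cd (x + 1) = el x) (u v : List ℕ) (hw : (allLt nc u && allLt nc v) = true)
    (e : evw cd (u.map Nat.succ) = evw cd (v.map Nat.succ)) : evw el (u ++ invw il v) = 1 := by
  rw [Bool.and_eq_true] at hw
  rw [evw_succ h u hw.1, evw_succ h v hw.2] at e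
  rw [evw_append, evw_invw el il nc hinv v (allLt_sound hw.2), e, mul_inv_cancel]
end

end CfH6.D
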