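import Cfsg.Agent.OD.Pre
import Cfsg.Agent.H6.DF
/-! Chunked action tables and a six point base for the double coset certificates. -/
set_option autoImplicit false
namespace CfH6.D
open MulAction

/-- table of letter `l` at point `p`, stored in chunks of 256 points -/
noncomputable def tf2 (T : Tr) (w mk l p : ℕ) : ℕ :=
  force (Nat.add l (Nat.shiftLeft (Nat.shiftRight p 8) 6)) fun i => lk w mk (Tr.get T i) (Nat.land p 255)

noncomputable def eqc6 (f : ℕ → ℕ → ℕ) (lb ml fu a b c d a' b' : ℕ) (L1 L2 : List ℕ) : ℕ :=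
  Nat.lor (eqc f lb ml fu a b c a' L1 L2) (eqc f lb ml fu d b' d b' L1 L2)

theorem Tb.eqc6 {N : Type*} [Group N] [MulAction N ℕ] {f : ℕ → ℕ → ℕ} {m k : ℕ} {el : ℕ → N} {lb ml : ℕ}
    (T : Tb f m k el) (fu : ℕ) {a b c d a' b' : ℕ}
    (hs : (Nat.blt ml k && Nat.blt a m && Nat.blt b m && Nat.blt c m && Nat.blt d m && Nat.blt a' m &&
      Nat.blt b' m) = true)
    (hb : ∀ g : N, (∀ p ∈ [a, b, c, d, a', b'], g • p = p) → g = 1) (L1 L2 : List ℕ)
    (h : eqc6 f lb ml fu a b c d a' b' L1 L2 = 0) : evw (cdF el lb ml fu) L1 = evw (cdF el lb ml fu) L2 := by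
  simp only [Bool.and_eq_true, Nat.blt_eq] at hs
  obtain ⟨⟨⟨⟨⟨⟨hk, ha⟩, hb'⟩, hc⟩, hd⟩, ha'⟩, hb''⟩ := hs
  obtain ⟨h, h'⟩ := lor_zero h
  rw [D.eqc, trL4_eq, trL4_eq] at h h'
  obtain ⟨h1, h2⟩ := lor_zero h
  obtain ⟨h1, h3⟩ := lor_zero h1
  obtain ⟨h2, h4⟩ := lor_zero h2
  obtain ⟨h5, h6⟩ := lor_zero (lor_zero h').1
  have e : ∀ p < m, Nat.xor (trL f lb ml fu L1 p) (trL f lb ml fu L2 p) = 0 →
      ((evw (cdF el lb ml fu) L2)⁻¹ * evw (cdF el lb ml fu) L1) • p = p := fun p hp h => by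
    have := xor_zero' h
    rw [(T.codes hk fu L1 hp).1, (T.codes hk fu L2 hp).1] at this
    rw [mul_smul, this, inv_smul_smul]
  refine (inv_mul_eq_one.mp (hb _ ?_)).symm
  simp only [List.forall_mem_cons]
  exact ⟨e a ha h1, e b hb' h3, e c hc h2, e d hd h5, e a' ha' h4, e b' hb'' h6, forall_nil⟩

end CfH6.D
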