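import Cfsg.Agent.OD.Pre
import Cfsg.Agent.H6.G23B
import Cfsg.Agent.H6.G23T1
import Cfsg.Agent.H6.G23T2
import Cfsg.Agent.H6.G23T3
import Cfsg.Agent.H6.G23T4
set_option autoImplicit false
set_option maxRecDepth 100000
set_option linter.all false
namespace CfH6.G23O
open CfH6
def s0 : List (List ℕ) := [[0], [1], [2], [3], [4], [5], [6], [7], [8], [9]]
def t0 : List (List ℕ) := [[0], [2], [4], [6], [8]]
theorem cov0 : Covers (gensub (byW G23B.el t0) 5) (gensub (byW G23B.el s0) 10) 7371 :=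
  cov_step G23B.el G23B.hinv G23B.hrel s0 t0 5 4 (fun ev H => G23T1.covers ev H) (by decide +kernel)
theorem top0 : gensub (byW G23B.el s0) 10 = ⊤ := (gensub_id G23B.el (by decide)).trans G23B.htop
theorem covT0 : Covers (gensub (byW G23B.el t0) 5) ⊤ 7371 := cov0.top top0
def s1 : List (List ℕ) := [[0], [1], [2], [3], [4], [5], [6], [7], [8]]
def t1 : List (List ℕ) := [[0], [2], [8]]
theorem cov1 : Covers (gensub (byW G23B.el t1) 3) (gensub (byW G23B.el s1) 9) 12 :=
  cov_step G23B.el G23B.hinv G23B.hrel s1 t1 3 4 (fun ev H => G23T2.covers ev H) (by decide +kernel)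
def s2 : List (List ℕ) := [[0], [1], [2], [3], [8]]
def t2 : List (List ℕ) := [[0]]
theorem cov2 : Covers (gensub (byW G23B.el t2) 1) (gensub (byW G23B.el s2) 5) 16 :=
  cov_step G23B.el G23B.hinv G23B.hrel s2 t2 1 4 (fun ev H => G23T3.covers ev H) (by decide +kernel)
def s3 : List (List ℕ) := [[0], [1]]
def t3 : List (List ℕ) := []
theorem cov3 : Covers (gensub (byW G23B.el t3) 0) (gensub (byW G23B.el s3) 2) 3 :=
  cov_step G23B.el G23B.hinv G23B.hrel s3 t3 0 4 (fun ev H => G23T4.covers ev H) (by decide +kernel)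
theorem finT3 : Finite (gensub (byW G23B.el t3) 0) ∧ Nat.card (gensub (byW G23B.el t3) 0) ≤ 1 := (gensub_zero _)
theorem fin3 : Finite (gensub (byW G23B.el s3) 2) ∧ Nat.card (gensub (byW G23B.el s3) 2) ≤ 3 :=
  fin_cast (cov3.card_le finT3) (by decide)
theorem finT2 : Finite (gensub (byW G23B.el t2) 1) ∧ Nat.card (gensub (byW G23B.el t2) 1) ≤ 3 := (fin_le (gensub_le_of_subsIn G23B.el (by decide)) fin3)
theorem fin2 : Finite (gensub (byW G23B.el s2) 5) ∧ Nat.card (gensub (byW G23B.el s2) 5) ≤ 48 :=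
  fin_cast (cov2.card_le finT2) (by decide)
theorem finT1 : Finite (gensub (byW G23B.el t1) 3) ∧ Nat.card (gensub (byW G23B.el t1) 3) ≤ 48 := (fin_le (gensub_le_of_subsIn G23B.el (by decide)) fin2)
theorem fin1 : Finite (gensub (byW G23B.el s1) 9) ∧ Nat.card (gensub (byW G23B.el s1) 9) ≤ 576 :=
  fin_cast (cov1.card_le finT1) (by decide)
theorem finT0 : Finite (gensub (byW G23B.el t0) 5) ∧ Nat.card (gensub (byW G23B.el t0) 5) ≤ 576 := (fin_le (gensub_le_of_subsIn G23B.el (by decide)) fin1)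
theorem fin0 : Finite (gensub (byW G23B.el s0) 10) ∧ Nat.card (gensub (byW G23B.el s0) 10) ≤ 4245696 :=
  fin_cast (cov0.card_le finT0) (by decide)
theorem finG : Finite G23B.G ∧ Nat.card G23B.G ≤ 4245696 := fin_top (top0 ▸ fin0)
end CfH6.G23O
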