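import Cfsg.Agent.OD.Pre
import Cfsg.Agent.H6.G23B
import Cfsg.Agent.H6.G23T5
set_option autoImplicit false
set_option maxRecDepth 100000
set_option linter.all false
namespace CfH6.G23O2
open CfH6
def s0 : List (List ℕ) := [[0], [1], [2], [3], [4], [5], [6], [7], [8], [9]]
def t0 : List (List ℕ) := [[0], [2], [8], [9], [4, 7]]
theorem cov0 : Covers (gensub (byW G23B.el t0) 5) (gensub (byW G23B.el s0) 10) 351 :=
  cov_step G23B.el G23B.hinv G23B.hrel s0 t0 5 4 (fun ev H => G23T5.covers ev H) (by decide +kernel)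
theorem top0 : gensub (byW G23B.el s0) 10 = ⊤ := (gensub_id G23B.el (by decide)).trans G23B.htop
theorem covT0 : Covers (gensub (byW G23B.el t0) 5) ⊤ 351 := cov0.top top0
end CfH6.G23O2
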