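import Cfsg.Agent.OD.Pre
import Cfsg.Agent.H6.G23A
import Cfsg.Agent.H6.G23K
import Cfsg.Agent.H6.G23O
import Cfsg.Agent.H6.G23O2
/-! An abstract presentation: order and simplicity. -/
set_option autoImplicit false
set_option maxRecDepth 100000
namespace CfH6.G23G
open CfH6 MulAction
attribute [local instance] G23A.act

theorem stab : G23A.H = stabilizer G23B.G 0 ∧ G23A.H.index = 351 := G23A.stab G23O2.covT0

theorem card : Nat.card G23B.G = 4245696 := (G23A.top G23O.finG).1

theorem base : ∀ g : G23B.G, (∀ b ∈ G23A.bs, g • b = b) → g = 1 := (G23A.top G23O.finG).2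

theorem simple : IsSimpleGroup G23B.G := by
  have := G23O.finG.1
  refine simple_of stab.1 (by rw [stab.2]; decide) (G23A.hmax stab.1 stab.2) base G23A.hbs fun M hM h => ?_
  exact top_of_index (eq_top_of_collapse G23B.el (n := 4) G23B.hinv G23B.hrel G23B.htop M
    (pow_words G23B.el h (by norm_num) (not_dvd_card card stab.2 (by decide)) 1 G23A.ex (G23A.hex base))
    (by decide +kernel) 1 fun ev' h1 h2 => G23K.covers ev' ⊥ h1 h2 forall_nil)

theorem nprime : ¬ (Nat.card G23B.G).Prime := by rw [card]; norm_num

end CfH6.G23G
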