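import Cfsg.Agent.OD.Pre
import Cfsg.Agent.H6.HNB
import Cfsg.Agent.H6.TCPart
import Cfsg.Agent.H6.HNR
set_option autoImplicit false
set_option maxRecDepth 100000
set_option linter.all false
namespace CfH6.HNB1
open CfH6
def r0 : List (List ℕ) := [[0, 0, 5, 1, 1, 5], [0, 5, 1, 2, 0, 6, 1, 3]]
theorem h0 : ∀ w ∈ r0, evw HNB.el w = 1 := follows_sound (n := 0) HNB.el HNB.hinv
  (rel_step HNB.el HNB.hinv HNB.hrel [[0], [1], [2], [3], [4], [5], [6]] 4 (fun ev H => HNR.words ev H) (by decide +kernel)) (by decide +kernel)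
abbrev G : Type := HNB.G
noncomputable abbrev el : ℕ → G := HNB.el
def il : List ℕ := HNB.il
def rels : List (List ℕ) := (HNB.rels ++ r0)
theorem hinv : ∀ x < 7, el (il.getD x 0) = (el x)⁻¹ := HNB.hinv
theorem hrel : ∀ r ∈ rels, evw el r = 1 := (forall_app HNB.hrel h0)
theorem htop : gensub el 7 = ⊤ := HNB.htop
end CfH6.HNB1
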