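import Cfsg.Agent.OD.Pre
import Cfsg.Agent.H6.HSB
import Cfsg.Agent.H6.TCPart
import Cfsg.Agent.H6.HSR1
set_option autoImplicit false
set_option maxRecDepth 100000
set_option linter.all false
namespace CfH6.HSB1
open CfH6
def r0 : List (List ℕ) := [[0, 0, 0, 0]]
theorem h0 : ∀ w ∈ r0, evw HSB.el w = 1 := follows_sound (n := 0) HSB.el HSB.hinv
  (rel_step HSB.el HSB.hinv HSB.hrel [[0], [1], [2], [3]] 4 (fun ev H => HSR1.words ev H) (by decide +kernel)) (by decide +kernel)
abbrev G : Type := HSB.G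
noncomputable abbrev el : ℕ → G := HSB.el
def il : List ℕ := HSB.il
def rels : List (List ℕ) := (HSB.rels ++ r0)
theorem hinv : ∀ x < 5, el (il.getD x 0) = (el x)⁻¹ := HSB.hinv
theorem hrel : ∀ r ∈ rels, evw el r = 1 := (forall_app HSB.hrel h0)
theorem htop : gensub el 5 = ⊤ := HSB.htop
end CfH6.HSB1
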