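import Cfsg.Agent.OD.Pre
import Cfsg.Agent.H6.HSB1
import Cfsg.Agent.H6.TCPart
import Cfsg.Agent.H6.HST1
import Cfsg.Agent.H6.HST2
import Cfsg.Agent.H6.HST3
set_option autoImplicit false
set_option maxRecDepth 100000
set_option linter.all false
namespace CfH6.HSO1
open CfH6
def s0 : List (List ℕ) := [[0], [1], [2], [3], [4]]
def t0 : List (List ℕ) := [[0], [2]]
theorem cov0 : Covers (gensub (byW HSB1.el t0) 2) (gensub (byW HSB1.el s0) 5) 352 :=
  cov_step HSB1.el HSB1.hinv HSB1.hrel s0 t0 2 4 (fun ev H => HST1.covers ev H) (by decide +kernel)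
theorem top0 : gensub (byW HSB1.el s0) 5 = ⊤ := (gensub_id HSB1.el (by decide)).trans HSB1.htop
theorem covT0 : Covers (gensub (byW HSB1.el t0) 2) ⊤ 352 := cov0.top top0
def s1 : List (List ℕ) := [[0], [1], [2], [3]]
def t1 : List (List ℕ) := [[2], [0, 0]]
theorem cov1 : Covers (gensub (byW HSB1.el t1) 2) (gensub (byW HSB1.el s1) 4) 126000 :=
  cov_step HSB1.el HSB1.hinv HSB1.hrel s1 t1 2 4 (fun ev H => HST2.covers ev H) (by decide +kernel)
def s2 : List (List ℕ) := [[2], [3], [0, 0]]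
def t2 : List (List ℕ) := []
theorem cov2 : Covers (gensub (byW HSB1.el t2) 0) (gensub (byW HSB1.el s2) 3) 12 :=
  cov_step HSB1.el HSB1.hinv HSB1.hrel s2 t2 0 4 (fun ev H => HST3.covers ev H) (by decide +kernel)
theorem finT2 : Finite (gensub (byW HSB1.el t2) 0) ∧ Nat.card (gensub (byW HSB1.el t2) 0) ≤ 1 := (gensub_zero _)
theorem fin2 : Finite (gensub (byW HSB1.el s2) 3) ∧ Nat.card (gensub (byW HSB1.el s2) 3) ≤ 12 :=
  fin_cast (cov2.card_le finT2) (by decide)
theorem finT1 : Finite (gensub (byW HSB1.el t1) 2) ∧ Nat.card (gensub (byW HSB1.el t1) 2) ≤ 12 := (fin_le (gensub_le_of_subsIn HSB1.el (by decide)) fin2)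
theorem fin1 : Finite (gensub (byW HSB1.el s1) 4) ∧ Nat.card (gensub (byW HSB1.el s1) 4) ≤ 1512000 :=
  fin_cast (cov1.card_le finT1) (by decide)
theorem finT0 : Finite (gensub (byW HSB1.el t0) 2) ∧ Nat.card (gensub (byW HSB1.el t0) 2) ≤ 1512000 := (fin_le (gensub_le_of_subsIn HSB1.el (by decide)) fin1)
theorem fin0 : Finite (gensub (byW HSB1.el s0) 5) ∧ Nat.card (gensub (byW HSB1.el s0) 5) ≤ 532224000 :=
  fin_cast (cov0.card_le finT0) (by decide)
theorem finG : Finite HSB1.G ∧ Nat.card HSB1.G ≤ 532224000 := fin_top (top0 ▸ fin0)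
end CfH6.HSO1
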