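import Cfsg.Agent.OD.Pre
import Cfsg.Agent.H6.HSDA
import Cfsg.Agent.H6.DK
import Cfsg.Agent.H6.HSO1
set_option autoImplicit false
set_option maxRecDepth 100000
set_option Elab.async false
set_option linter.all false
namespace CfH6.HSB2
open CfH6 CfH6.D MulAction
theorem k0 : Rng (chkK HSD.trD [3] [1, 3, 1, 3, 1, 3, 3, 3, 1, 4, 1, 3, 3, 3, 1, 3, 1, 3, 1] 104952112 616011237) 0 1408 := rng_of 0 11 0 1408 (by decide +kernel)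
attribute [local instance] HSD.actD
theorem h : evw HSB.el ([2, 2, 0, 2, 0, 2, 0, 2, 2, 2, 0, 3, 0, 2, 2, 2, 0, 2, 0, 2, 0] ++ invw HSB.il [0, 2, 0, 2, 0, 2, 2, 2, 0, 3, 0, 2, 2, 2, 0, 2, 0, 2, 0, 2, 2]) = 1 := have := HSO1.finG.1
  rel_of_eq HSB.hinv HSD.cdx _ _ (by decide) (kill3 HSD.trsD (fun g _ hp => HSD.tb0D.bound HSB.htop g hp) HSD.low HSO1.finG (by decide)
    [3] [1, 3, 1, 3, 1, 3, 3, 3, 1, 4, 1, 3, 3, 3, 1, 3, 1, 3, 1] 104952112 616011237 (k0))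
abbrev G : Type := HSB.G
noncomputable abbrev el : ℕ → G := HSB.el
def il : List ℕ := HSB.il
def rels : List (List ℕ) := ([2, 2, 0, 2, 0, 2, 0, 2, 2, 2, 0, 3, 0, 2, 2, 2, 0, 2, 0, 2, 0] ++ invw HSB.il [0, 2, 0, 2, 0, 2, 2, 2, 0, 3, 0, 2, 2, 2, 0, 2, 0, 2, 0, 2, 2]) :: HSB1.rels
theorem hinv : ∀ x < 5, el (il.getD x 0) = (el x)⁻¹ := HSB.hinv
theorem hrel : ∀ r ∈ rels, evw el r = 1 := forall_cons h HSB1.hrel
theorem htop : gensub el 5 = ⊤ := HSB.htop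
end CfH6.HSB2
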