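import Cfsg.Agent.OD.Pre
import Cfsg.Agent.H6.HSDA
import Cfsg.Agent.H6.HSO2
set_option autoImplicit false
set_option maxRecDepth 100000
set_option Elab.async false
set_option linter.all false
namespace CfH6.HSD
open CfH6 CfH6.D MulAction
attribute [local instance] actD
theorem fin : Finite HSB.G := HSO2.finG.1
theorem card : Nat.card HSB.G = 177408000 := (low.top HSO2.finG).1
theorem base : ∀ g : HSB.G, (∀ b ∈ [0, 99, 21, 3], g • b = b) → g = 1 := (low.top HSO2.finG).2
theorem heq : ∀ a b, eq a b = 0 → evw cd a = evw cd b := fun a b h => tbD.eqc 7 (by decide) base a b h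
end CfH6.HSD
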