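import Cfsg.Agent.OD.Pre
import Cfsg.Agent.H6.HSD
import Cfsg.Agent.H6.HNC.F0
import Cfsg.Agent.H6.HNC.O
import Cfsg.Agent.H6.HNC.P0
set_option autoImplicit false
set_option maxRecDepth 100000
set_option Elab.async false
set_option linter.all false
namespace CfH6.HNC
open CfH6 CfH6.D MulAction
def σ : List (List ℕ) := [[0],
  [1],
  [2],
  [3],
  [4]]
def uss : List (List (List ℕ)) := [[[1, 1], [0, 0]],
  [[], [], [], [], []],
  [[0], [], [1]],
  [[], [1], [0]],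
  [[1], [0], []],
  [[4], [4], [4]]]
def bus : List (List ℕ × List ℕ) := [([2], [3]),
  ([1, 2, 0], [1, 3, 0])]
def ex : List (List ℕ) := [[0, 0, 5, 1, 1, 5],
  [0, 5, 1, 2, 0, 6, 1, 3]]
def gws : List (List ℕ) := uss.map (gw σ 5)
def bws : List (List ℕ) := bus.map fun u => subst σ u.1 ++ 5 :: (subst σ u.2 ++ [6])
theorem chk : Rng P.chk 0 767 := p0
section
variable {G : Type} [Group G] (el : ℕ → G) (ρ : HSB.G →* G) (hρ : ∀ x < 5, ρ (HSB.el x) = byW el σ x)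
include hρ
theorem trl : Trl ρ HSD.cd HSD.eq 5 el σ := ⟨HSD.heq, fun x hx => by rw [HSD.cdx x hx, hρ x hx]⟩
theorem hbp (ht : el 6 = (el 5)⁻¹) (h : ∀ w ∈ bws, evw el w = 1) : ∀ p ∈ P.bp, ρ (HSD.cd p.1) * el 5 = el 5 * ρ (HSD.cd p.2) :=
  (trl el ρ hρ).bp _ _ ht _ bus h (by decide +kernel)
variable (H : Subgroup G) (hH : ∀ n, ρ n ∈ H) (hg : ∀ w ∈ gws, evw el w = 1)
  (hb : ∀ p ∈ P.bp, ρ (HSD.cd p.1) * el 5 = el 5 * ρ (HSD.cd p.2))
noncomputable def C : Ctx P HSB.G G where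
  ρ := ρ
  t := el 5
  H := H
  Bs := ⊤
  cd := HSD.cd
  cd0 := HSD.cd0
  heq := HSD.heq
  hH := fun _ => hH
  hB := fun _ => rfl
  hrel := (trl el ρ hρ).rels 5 _ uss hg (by decide +kernel)
  hsub := forall_nil
  hbp := fun p hp => ⟨trivial, hb p hp⟩
include H hH hg hb
theorem hS : ∀ k < 767, (C el ρ hρ H hH hg hb).Sem (P.fact k) := (C el ρ hρ H hH hg hb).sound chk
section
attribute [local instance] actO
theorem memB : ∀ k, P.okP 767 trO k = 0 → HSD.cd (P.cdK k) ∈ Bsub ρ (el 5) ⊓ stO := Ctx.okP_mem (hS el ρ hρ H hH hg hb) trsO (by decide)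
end
section
attribute [local instance] HSD.actD
theorem cardB : 126000 ≤ Nat.card (Bsub ρ (el 5) ⊓ stO : Subgroup _) := have := HSD.fin; levs_card HSD.trsD (memB el ρ hρ H hH hg hb) levB _ lB
theorem hi : ∀ p ∈ lv, ((C el ρ hρ H hH hg hb).T p.1).index ≤ p.2 := have := HSD.fin; forall_cons (Ctx.T0 rfl) (forall_cons (index_le HSD.card (levs_card HSD.trsD (Ctx.okE_mem rfl (hS el ρ hρ H hH hg hb) 1) lev1 126000 l1) (by decide)) (forall_cons (index_le HSD.card (levs_card HSD.trsD (Ctx.okE_mem rfl (hS el ρ hρ H hH hg hb) 2) lev2 80640 l2) (by decide)) (forall_cons (index_le HSD.card (levs_card HSD.trsD (Ctx.okE_mem rfl (hS el ρ hρ H hH hg hb) 3) lev3 5040 l3) (by decide)) (forall_cons (index_le HSD.card (levs_card HSD.trsD (Ctx.okE_mem rfl (hS el ρ hρ H hH hg hb) 5) lev5 1440 l5) (by decide)) (forall_cons (index_le HSD.card (levs_card HSD.trsD (Ctx.okE_mem rfl (hS el ρ hρ H hH hg hb) 6) lev6 500 l6) (by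 decide)) (forall_cons (index_le HSD.card (levs_card HSD.trsD (Ctx.okE_mem rfl (hS el ρ hρ H hH hg hb) 7) lev7 240 l7) (by decide)) (forall_cons (index_le HSD.card (levs_card HSD.trsD (Ctx.okE_mem rfl (hS el ρ hρ H hH hg hb) 8) lev8 640 l8) (by decide)) (forall_cons (index_le HSD.card (levs_card HSD.trsD (Ctx.okE_mem rfl (hS el ρ hρ H hH hg hb) 9) lev9 30720 l9) (by decide)) (forall_nil)))))))))
end
section
attribute [local instance] actO
theorem dec : ∀ γ ∈ (C el ρ hρ H hH hg hb).K, (C el ρ hρ H hH hg hb).U LM γ := have := HSD.fin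
  (C el ρ hρ H hH hg hb).dec (m := 1408) (a := 65) (b := 65) lv (by decide +kernel) List.mem_cons_self (lm_of lv LM (by decide +kernel))
    (fun x => tb0O.bound HSB.htop x (by decide)) (stab_le HSD.card lowO (cardB el ρ hρ H hH hg hb) (by decide)) (forall_cons (Ctx.cos_of rfl (hS el ρ hρ H hH hg hb) trsO 0 [nat_lit 26, nat_lit 732, nat_lit 21] 0 0 1 ct0 c0) (forall_cons (Ctx.cos_of rfl (hS el ρ hρ H hH hg hb) trsO 1 [nat_lit 24, nat_lit 22] 1 0 11 ct1 c1) (forall_cons (Ctx.cos_of rfl (hS el ρ hρ H hH hg hb) trsO 2 [nat_lit 49, nat_lit 52, nat_lit 200, nat_lit 45, nat_lit 39, nat_lit 43] 12 0 4 ct2 c2) (forall_cons (Ctx.cos_of rfl (hS el ρ hρ H hH hg hb) trsO 3 [nat_lit 70, nat_lit 56, nat_lit 61, nat_lit 59] 16 0 14 ct3 c3) (forall_cons (Ctx.cos_of rfl (hS el ρ hρ H hH hg hb) trsO 5 [nat_lit 211, nat_lit 221, nat_lit 224, nat_lit 284, nat_lit 259] 30 0 16 ct5 c5) (forall_cons (Ctx.cos_of rfl (hS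 el ρ hρ H hH hg hb) trsO 6 [nat_lit 346, nat_lit 338, nat_lit 352, nat_lit 425] 46 0 16 ct6 c6) (forall_cons (Ctx.cos_of rfl (hS el ρ hρ H hH hg hb) trsO 7 [nat_lit 468, nat_lit 516, nat_lit 476, nat_lit 460] 62 0 30 ct7 c7) (forall_cons (Ctx.cos_of rfl (hS el ρ hρ H hH hg hb) trsO 8 [nat_lit 668, nat_lit 707, nat_lit 643, nat_lit 694, nat_lit 650] 92 0 7 ct8 c8) (forall_cons (Ctx.cos_of rfl (hS el ρ hρ H hH hg hb) trsO 9 [nat_lit 718, nat_lit 722, nat_lit 725, nat_lit 730, nat_lit 712, nat_lit 710] 99 0 2 ct9 c9) (forall_nil))))))))))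
end
theorem covers : Covers H (C el ρ hρ H hH hg hb).K 1539000 := have := HSD.fin
  (C el ρ hρ H hH hg hb).cover lv (lm_of lv LM (by decide +kernel)) (dec el ρ hρ H hH hg hb) (hi el ρ hρ H hH hg hb) _ (by decide +kernel)
theorem hmax (hK : (C el ρ hρ H hH hg hb).K = ⊤) : ∀ L : Subgroup G, H ≤ L → L = H ∨ L = ⊤ :=
  (C el ρ hρ H hH hg hb).hmax rfl lv (lm_of lv LM (by decide +kernel)) (dec el ρ hρ H hH hg hb) hK (forall_cons (Or.inl rfl) (forall_cons (Or.inr (Ctx.ov_of rfl (hS el ρ hρ H hH hg hb) 1 [nat_lit 0] 737 25 (by decide +kernel))) (forall_cons (Or.inr (Ctx.ov_of rfl (hS el ρ hρ H hH hg hb) 2 [nat_lit 681207050, nat_lit 0] 745 664 (by decide +kernel))) (forall_cons (Or.inr (Ctx.ov_of rfl (hS el ρ hρ H hH hg hb) 3 [nat_lit 0] 748 63 (by decide +kernel))) (forall_cons (Or.inr (Ctx.ov_of rfl (hS el ρ hρ H hH hg hb) 5 [nat_lit 0] 751 251 (by decide +kernel))) (forall_cons (Or.inr (Ctx.ov_of rfl (hS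 el ρ hρ H hH hg hb) 6 [nat_lit 0] 754 373 (by decide +kernel))) (forall_cons (Or.inr (Ctx.ov_of rfl (hS el ρ hρ H hH hg hb) 7 [nat_lit 0] 758 487 (by decide +kernel))) (forall_cons (Or.inr (Ctx.ov_of rfl (hS el ρ hρ H hH hg hb) 8 [nat_lit 0] 759 664 (by decide +kernel))) (forall_cons (Or.inr (Ctx.ov_of rfl (hS el ρ hρ H hH hg hb) 9 [nat_lit 0] 762 731 (by decide +kernel))) (forall_nil))))))))))
end
end CfH6.HNC
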