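import Cfsg.Agent.OD.Pre
import Cfsg.Agent.H6.HNM.D
/-! An element of order 19 of the Harada-Norton group. -/
set_option autoImplicit false
set_option maxRecDepth 100000
set_option Elab.async false
set_option linter.all false
namespace CfH6.HNE
open CfH6
theorem w : ∀ r ∈ [wpow [0, 2, 2, 4, 3, 5] (19 ^ 1)], evw (evU HNM.sem HNM.ms HNB.il) r = 1 := HNM.U.rels (by decide +kernel)
end CfH6.HNE
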