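import Cfsg.Agent.OD.Pre
import Cfsg.Agent.H6.HNB1
import Cfsg.Agent.H6.HNC
import Cfsg.Agent.H6.HNK
import Cfsg.Agent.H6.HNE
import Cfsg.Agent.H6.HNX
import Cfsg.Agent.H6.Big2
import Cfsg.Agent.H6.HNS.p2
import Cfsg.Agent.H6.HNS.p3
import Cfsg.Agent.H6.HNS.p5
import Cfsg.Agent.H6.HNS.p7
import Cfsg.Agent.H6.HNS.p11
import Cfsg.Agent.H6.HNS.p19
import Cfsg.Agent.OD.Helper6x2350ad663f
import Cfsg.Agent.OD.Helper6x5d6971ed52
/-! The presented Harada-Norton group: order and simplicity. -/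
set_option autoImplicit false
set_option maxRecDepth 100000
set_option Elab.async false
set_option linter.all false
namespace CfH6.HNG
open CfH6
open Cfsg.Spor

noncomputable abbrev H : Subgroup HNB.G := gensub (byW HNB.el HNC.σ) 5
theorem ex : ∃ ρ : HSB.G →* HNB.G, ∀ x < 5, ρ (HSB.el x) = byW HNB.el HNC.σ x :=
  HSB.hhom _ (byW_inv HNB.el (n := 4) HNB.hinv HNB.hrel (by decide +kernel))
    (byW_rels HNB.el (n := 4) HNB.hinv HNB.hrel (by decide +kernel))
noncomputable def ρ : HSB.G →* HNB.G := Classical.choose ex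
theorem hρ : ∀ x < 5, ρ (HSB.el x) = byW HNB.el HNC.σ x := Classical.choose_spec ex
theorem range : ρ.range = H := range_hom hρ HSB.htop
theorem hg : ∀ w ∈ HNC.gws, evw HNB.el w = 1 := follows_sound (n := 4) HNB.el HNB.hinv HNB1.hrel (by decide +kernel)
theorem hw : ∀ w ∈ HNC.bws, evw HNB.el w = 1 := follows_sound (n := 4) HNB.el HNB.hinv HNB1.hrel (by decide +kernel)
theorem hH (n : HSB.G) : ρ n ∈ H := range ▸ MonoidHom.mem_range.mpr ⟨n, rfl⟩
noncomputable abbrev C := HNC.C HNB.el ρ hρ H hH hg (HNC.hbp HNB.el ρ hρ (HNB.hinv 5 (by decide)) hw)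
theorem hK : C.K = ⊤ := C.K_top (σ := HNC.σ) (nc := 5) (fun x hx => (congrArg ρ (HSD.cdx x hx)).trans (hρ x hx))
  rfl (HNB.hinv 5 (by decide)) HNB.htop (by decide)
theorem cov : Covers H ⊤ 1539000 := hK ▸ HNC.covers _ _ _ _ _ _ _
theorem hmax : ∀ L : Subgroup HNB.G, H ≤ L → L = H ∨ L = ⊤ := HNC.hmax _ _ _ _ _ _ _ hK
theorem finH : Finite H ∧ Nat.card H ≤ 177408000 := range ▸ card_range_le _ HSO2.finG
theorem finG : Finite HNB.G ∧ Nat.card HNB.G ≤ 273030912000000 := fin_top (fin_cast (cov.card_le finH) (by decide))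
theorem big : Nat.card HNB.G = 273030912000000 ∧ Function.Injective HNM.φ := inj_of_dvd _ finG
  (dvd_cons HNS.p2 (dvd_cons HNS.p3 (dvd_cons HNS.p5 (dvd_cons HNS.p7 (dvd_cons HNS.p11 HNS.p19
    (by decide)) (by decide)) (by decide)) (by decide)) (by decide))
theorem index : H.index = 1539000 ∧ Nat.card H = 177408000 := index_of_card cov finH big.1 (by decide)

theorem simple : IsSimpleGroup HNB.G := by
  have := finG.1
  have := nontriv_of_card big.1
  have := HNS.factP
  refine simple_max _ hmax (fun M hM h => Or.inl ?_) fun M hM h => ?_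
  · exact MP.core_bot HNM.U rfl HNM.φ HNM.hφ big.2 (by decide) _ _ _ HNX.sp HNC.σ (by decide +kernel) M h
  · exact top_of_index (eq_top_of_collapse HNB.el (n := 4) HNB.hinv HNB.hrel HNB.htop M
      (pow_words HNB.el h (by norm_num) (not_dvd_card big.1 index.1 (by decide)) 1 [[0, 2, 2, 4, 3, 5]]
        (forall_cons (rel_of_inj _ big.2 HNM.hφ (by decide +kernel) HNE.w) forall_nil))
      (by decide +kernel) 1 fun ev' h1 h2 => HNK.covers ev' ⊥ h1 h2 forall_nil)

theorem sub_eq : (Subgroup.closure ({HN.x, HN.y, HN.z} : Set (FreeGroup HN.Gen))).map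
    (PresentedGroup.mk (coxRelators HN.edges ∪ {r | r ∈ HN.extra})) = H := by
  rw [map_closure_eq _ HNB.el HNB.hinv HNB.tr HNB.hmk _ [HN.x, HN.y, HN.z] (ws := [[0], [2], [4]]) (k := 3)
    (by intro r; simp) (by decide) (by decide +kernel)]
  refine le_antisymm (gensub_le_of_subsIn _ (by decide)) (gensub_le fun y hy => ?_)
  have m : ∀ y < 3, HNB.el (2 * y) ∈ gensub (byW HNB.el [[0], [2], [4]]) 3 := fun y hy => by
    have := mem_gensub (el := byW HNB.el [[0], [2], [4]]) hy
    interval_cases y <;> simpa [byW] using this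
  interval_cases y
  · simpa [byW, HNC.σ] using m 0 (by decide)
  · simpa [byW, HNC.σ, ← HNB.hinv 0 (by decide), HNB.il] using inv_mem (m 0 (by decide))
  · simpa [byW, HNC.σ] using m 1 (by decide)
  · simpa [byW, HNC.σ, ← HNB.hinv 2 (by decide), HNB.il] using inv_mem (m 1 (by decide))
  · simpa [byW, HNC.σ] using m 2 (by decide)
end CfH6.HNG
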