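import Cfsg.Agent.OD.Pre
import Cfsg.Agent.H6.HNM.R0
import Cfsg.Agent.H6.HNM.R1
set_option autoImplicit false
set_option maxRecDepth 100000
set_option Elab.async false
set_option linter.all false
namespace CfH6.HNM
open CfH6
theorem ex : ∃ φ : HNB.G →* Mtˣ, ∀ x < 7, φ (HNB.el x) = evU sem ms HNB.il x := HNB.hhom _ U.inv (forall_split _ 8 r0 (r1))
noncomputable def φ : HNB.G →* Mtˣ := Classical.choose ex
theorem hφ : ∀ x < 7, φ (HNB.el x) = evU sem ms HNB.il x := Classical.choose_spec ex
theorem range : φ.range = gensub (evU sem ms HNB.il) 7 := range_hom hφ HNB.htop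
end CfH6.HNM
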