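import Cfsg.Agent.OD.Pre
import Cfsg.Agent.H6.LeHS
import Cfsg.Agent.H6.LeM4
import Cfsg.Agent.H6.HSD
import Cfsg.Agent.H6.HSK
/-! The presented group `2.HS.2` and the lattice group `HS`. -/
set_option autoImplicit false
set_option maxRecDepth 100000
set_option Elab.async false
set_option linter.all false
namespace CfH6.HS2
open CfH6
open Cfsg Cfsg.Spor MulAction CfH6.Lee

def ms : List ℕ := [nx, nx, ny, nY, nz]

theorem exθ : ∃ θ : HSB.G →* Co0, ∀ x < 5, Φ (θ (HSB.el x)) = sem (lget ms 0 x) :=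
  lift_hom HSB.hhom ms (by simp only [ms, List.forall_mem_cons, yx, yy, yY, yz, true_and]; exact forall_nil)
    (by decide +kernel)

noncomputable def θ : HSB.G →* Co0 := exθ.choose
theorem hθ : ∀ x < 5, Φ (θ (HSB.el x)) = sem (lget ms 0 x) := exθ.choose_spec

/-- the inverse image of `HS` -/
noncomputable def K : Subgroup HSB.G := HS.comap (Co0.subtype.comp θ)

def w : Λ := leechV + leechV + leechU'

def T : Submonoid Co0 where
  carrier := {g | hom g w = w ∧ (hom g leechU' = leechU' ∨ hom g leechU' = -leechU')}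
  one_mem' := ⟨rfl, Or.inl rfl⟩
  mul_mem' := by
    rintro g h ⟨g1, g2⟩ ⟨h1, h2⟩
    have e : ∀ x, hom (g * h) x = hom g (hom h x) := fun _ => rfl
    refine ⟨by rw [e, h1, g1], ?_⟩
    rw [e]
    rcases h2 with h2 | h2 <;> rcases g2 with g2 | g2 <;> simp [h2, g2]

theorem zU : hom (θ (HSB.el 4)) leechU' = -leechU' := act (hθ 4 (by decide)) (by decide +kernel)

theorem memT (g : HSB.G) : θ g ∈ T := by
  have := HSD.fin
  refine mem_of_gens HSB.htop θ T (fun x hx => ⟨act (hθ x hx) (by revert x; decide +kernel), ?_⟩) g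
  by_cases h : x < 4
  · exact Or.inl (act (hθ x hx) (by clear hx; revert x; decide +kernel))
  · exact Or.inr ((show x = 4 by omega) ▸ zU)

theorem mem_K {g : HSB.G} : g ∈ K ↔ hom (θ g) leechU' = leechU' := by
  refine ⟨fun h => h.2, fun h => ⟨⟨(θ g).2, ?_⟩, h⟩⟩
  have h1 := (memT g).1
  rw [w, map_add, map_add, h, add_left_inj] at h1
  refine Subtype.ext (funext fun i => ?_)
  have : (hom (θ g) leechV).1 i + (hom (θ g) leechV).1 i = leechV.1 i + leechV.1 i :=
    congrArg (fun x : Λ => x.1 i) h1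
  change (hom (θ g) leechV).1 i = _
  omega

theorem index : K.index = 2 := by
  refine Subgroup.index_eq_two_iff.mpr ⟨HSB.el 4, fun b => ?_⟩
  have e : hom (θ (b * HSB.el 4)) leechU' = -hom (θ b) leechU' := by
    rw [map_mul, ← map_neg, ← zU]; rfl
  have n : -leechU' ≠ leechU' := by decide +kernel
  rw [mem_K, mem_K, e]
  rcases (memT b).2 with h | h <;> rw [h]
  · exact Or.inr ⟨rfl, n⟩
  · exact Or.inl ⟨neg_neg _, n⟩

instance normal : K.Normal := Subgroup.normal_of_index_eq_two index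

theorem card : Nat.card K = 88704000 := card_of_index HSD.card index (by decide)

noncomputable def ψ : K →* HS := (Co0.subtype.comp θ).subgroupComap HS

def bk : List (List ℕ) := [[3, 3, 0, 2, 2, 4, 0, 2, 4, 0, 2, 2, 2, 0, 2, 2], [0, 2, 2, 0, 3, 4, 3, 3, 4, 2, 2, 4, 3, 4, 0, 2, 2, 1, 3, 3, 1], [4, 2, 2, 4, 0, 3, 4, 3, 3, 4, 2, 2, 4, 2, 0, 4, 3, 3, 1], [4, 2, 2, 2, 0, 2, 2, 4, 2, 4, 2, 2, 4, 2, 2, 2, 1], [4, 3, 0, 3, 0, 2, 4, 2, 4, 2, 0, 3, 0, 3, 0, 3, 3, 1, 4], [4, 2, 2, 4, 2, 2, 4, 2, 4, 0, 3, 0, 3, 3, 4, 3, 3, 4]]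

theorem word (u : List ℕ) (Y : ℕ) (h : (allLt 5 u && chkM PM.mm PM.one ms u Y) = true) :
    Φ (θ (evw HSB.el u)) = sem Y := by
  rw [Bool.and_eq_true] at h
  have hw := allLt_sound h.1
  rw [← D.chk (lget_all (k := 5) (by decide +kernel)) hw h.2]
  clear h
  induction u with
  | nil => simp
  | cons a u ih =>
    rw [evw_cons, map_mul, map_mul, List.map_cons, List.prod_cons, hθ a (hw a List.mem_cons_self),
      ih fun x hx => hw x (List.mem_cons_of_mem _ hx)]

theorem surj : Function.Surjective ψ := by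
  obtain ⟨φ, hφ⟩ := isoHS'
  have := HiO.finG.1
  have h := mem_of_gens HiB.htop φ.toMonoidHom ψ.range.toSubmonoid fun x hx => by
    obtain ⟨g, h1, h2⟩ := hφ x hx
    have h3 : θ (evw HSB.el (bk.getD x [])) = g := Φ_inj ((word _ _ (by clear * - hx; revert x; decide +kernel)).trans h2.symm)
    have h4 : (θ (evw HSB.el (bk.getD x []))).1 = (φ (HiB.el x)).1 := h3 ▸ h1
    exact ⟨⟨evw HSB.el (bk.getD x []), show (θ _).1 ∈ HS from h4 ▸ (φ _).2⟩, Subtype.ext h4⟩
  intro y
  obtain ⟨g, rfl⟩ := φ.surjective y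
  exact h g

theorem perfect : commutator K = ⊤ := by
  have h0 : ∀ x < 4, HSB.el x ∈ K := fun x hx => mem_K.mpr (act (hθ x (by omega)) (by revert x; decide +kernel))
  have h1 := eq_top_of_collapse HSB.el (n := 4) HSB.hinv HSB.hrel HSB.htop ⁅K, K⁆ (ex := [[0, 2, 1, 3]]) (by
    simp only [List.forall_mem_singleton, evw_cons, evw_nil, mul_one]
    rw [show HSB.el 1 = (HSB.el 0)⁻¹ from HSB.hinv 0 (by decide), show HSB.el 3 = (HSB.el 2)⁻¹ from HSB.hinv 2 (by decide),
      ← mul_assoc, ← mul_assoc]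
    exact Subgroup.commutator_mem_commutator (h0 0 (by decide)) (h0 2 (by decide)))
    (by decide +kernel) 2 fun ev' h1 h2 => HSK.covers ev' ⊥ h1 h2 forall_nil
  have h2 : ⁅K, K⁆ ≤ K := Subgroup.commutator_le_left K K
  have h3 := Subgroup.relIndex_mul_index h2
  rw [index] at h3
  have h4 : K ≤ ⁅K, K⁆ := Subgroup.relIndex_eq_one.mp (by omega)
  refine Subgroup.map_injective K.subtype_injective ?_
  rw [Subgroup.map_subtype_commutator, ← MonoidHom.range_eq_map, Subgroup.range_subtype]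
  exact le_antisymm h2 h4

theorem center : Subgroup.center HS = ⊥ := have := simpleHS; center_bot (by rw [cardHS]; norm_num)

/-- the subgroup of index two of the presented group is a non-split double cover of `HS` -/
theorem cover : IsNonsplitDoubleCover K HS :=
  have := HSD.fin; double_cover' ψ surj center (by rw [card, cardHS]) perfect

theorem transport {G : Type*} [Group G] (e : HSB.G ≃* G) :
    ∃ L : Subgroup G, L.Normal ∧ L.index = 2 ∧ IsNonsplitDoubleCover L HS := by
  have := HSD.fin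
  refine ⟨K.map e.toMonoidHom, normal.map _ e.surjective, (K.index_map_of_bijective e.bijective).trans index, ?_⟩
  exact double_cover (e.toMonoidHom.comp K.subtype) (e.injective.comp K.subtype_injective)
    (by rw [MonoidHom.range_comp, Subgroup.range_subtype]) ψ surj center (by rw [card, cardHS]) perfect
end CfH6.HS2
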