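import Cfsg.Agent.OD.Pre
import Cfsg.Agent.H6.M24DA
import Cfsg.Agent.H6.DK
import Cfsg.Agent.H6.M24O1
set_option autoImplicit false
set_option maxRecDepth 100000
set_option Elab.async false
set_option linter.all false
namespace CfH6.M24B2
open CfH6 CfH6.D MulAction
theorem k0 : Rng (chkK M24D.trD [2, 1, 2, 1, 2, 1, 3, 1, 3] [2, 1, 3, 1, 2, 1, 2, 2, 1, 2, 1, 3, 3, 1, 2, 1, 2, 2, 1, 3, 1, 3, 3, 1, 3, 1, 2, 2, 1, 3, 1, 3, 3, 1, 2, 1, 2, 2, 1, 2, 1, 3, 3, 1, 2, 1, 2, 1, 3] 514287737 817026312) 0 759 := rng_of 0 5 119 759 (by decide +kernel)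
attribute [local instance] M24D.actD
theorem h : evw M24B.el ([1, 0, 1, 0, 1, 0, 2, 0, 2, 1, 0, 1, 0, 1, 0, 2, 0, 2, 1, 0, 2, 0, 1, 0, 1, 1, 0, 1, 0, 2, 2, 0, 1, 0, 1, 1, 0, 2, 0, 2, 2, 0, 2, 0, 1, 1, 0, 2, 0, 2, 2, 0, 1, 0, 1, 1, 0, 1, 0, 2, 2, 0, 1, 0, 1, 0, 2] ++ invw M24B.il [1, 0, 2, 0, 1, 0, 1, 1, 0, 1, 0, 2, 2, 0, 1, 0, 1, 1, 0, 2, 0, 2, 2, 0, 2, 0, 1, 1, 0, 2, 0, 2, 2, 0, 1, 0, 1, 1, 0, 1, 0, 2, 2, 0, 1, 0, 1, 0, 2, 1, 0, 1, 0, 1, 0, 2, 0, 2, 1, 0, 1, 0, 1, 0, 2, 0, 2]) = 1 := have := M24O1.finG.1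
  rel_of_eq M24B.hinv M24D.cdx _ _ (by decide) (kill3 M24D.trsD (fun g _ hp => M24D.tb0D.bound M24B.htop g hp) M24D.low M24O1.finG (by decide)
    [2, 1, 2, 1, 2, 1, 3, 1, 3] [2, 1, 3, 1, 2, 1, 2, 2, 1, 2, 1, 3, 3, 1, 2, 1, 2, 2, 1, 3, 1, 3, 3, 1, 3, 1, 2, 2, 1, 3, 1, 3, 3, 1, 2, 1, 2, 2, 1, 2, 1, 3, 3, 1, 2, 1, 2, 1, 3] 514287737 817026312 (k0))
abbrev G : Type := M24B.G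
noncomputable abbrev el : ℕ → G := M24B.el
def il : List ℕ := M24B.il
def rels : List (List ℕ) := ([1, 0, 1, 0, 1, 0, 2, 0, 2, 1, 0, 1, 0, 1, 0, 2, 0, 2, 1, 0, 2, 0, 1, 0, 1, 1, 0, 1, 0, 2, 2, 0, 1, 0, 1, 1, 0, 2, 0, 2, 2, 0, 2, 0, 1, 1, 0, 2, 0, 2, 2, 0, 1, 0, 1, 1, 0, 1, 0, 2, 2, 0, 1, 0, 1, 0, 2] ++ invw M24B.il [1, 0, 2, 0, 1, 0, 1, 1, 0, 1, 0, 2, 2, 0, 1, 0, 1, 1, 0, 2, 0, 2, 2, 0, 2, 0, 1, 1, 0, 2, 0, 2, 2, 0, 1, 0, 1, 1, 0, 1, 0, 2, 2, 0, 1, 0, 1, 0, 2, 1, 0, 1, 0, 1, 0, 2, 0, 2, 1, 0, 1, 0, 1, 0, 2, 0, 2]) :: M24B1.rels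
theorem hinv : ∀ x < 3, el (il.getD x 0) = (el x)⁻¹ := M24B.hinv
theorem hrel : ∀ r ∈ rels, evw el r = 1 := forall_cons h M24B1.hrel
theorem htop : gensub el 3 = ⊤ := M24B.htop
end CfH6.M24B2
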