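import Cfsg.Agent.OD.Pre
import Cfsg.Agent.H6.Mc3B
import Cfsg.Agent.H6.Mc3DA.D0
import Cfsg.Agent.H6.Mc3DA.D1
import Cfsg.Agent.H6.Mc3DA.D2
import Cfsg.Agent.H6.Mc3DA.D3
import Cfsg.Agent.H6.Mc3DA.P0
import Cfsg.Agent.H6.Mc3DA.P1
import Cfsg.Agent.H6.Mc3DA.P2
set_option autoImplicit false
set_option maxRecDepth 100000
set_option Elab.async false
set_option linter.all false
namespace CfH6.Mc3D
open CfH6 CfH6.D MulAction
theorem exD : ∃ ρ : Mc3B.G →* Equiv.Perm ℕ, ∀ x < 15, ∀ p < 67100, fD (Nat.succ x) p = ρ (Mc3B.el x) p ∧ ρ (Mc3B.el x) p < 67100 :=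
  tab_hom (fun x => fD (Nat.succ x)) Mc3B.hhom (by decide +kernel) (((iD0).trans iD1).trans iD2) ((((((((((((rD0).trans rD1).trans rD2).trans rD3).trans rD4).trans rD5).trans rD6).trans rD7).trans rD8).trans rD9).trans rD10).trans rD11)
noncomputable def rhoD : Mc3B.G →* Equiv.Perm ℕ := Classical.choose exD
@[reducible] noncomputable def actD : MulAction Mc3B.G ℕ := MulAction.compHom ℕ rhoD
section
attribute [local instance] actD
theorem tb0D : Tb (fun x => fD (Nat.succ x)) 67100 15 Mc3B.el := Classical.choose_spec exD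
noncomputable def lt : ℕ → Mc3B.G := slp Mc3B.el 15 sa sb
noncomputable def cd : ℕ → Mc3B.G := cdF lt 6 63 7
theorem tbD : Tb fD 67100 64 lt := tb0D.slp (by decide) (dD0) ((((((sD0).trans sD1).trans sD2).trans sD3).trans sD4).trans sD5)
noncomputable def trD : ℕ → ℕ → ℕ := trC fD 6 63 7
theorem trsD : Trs trD cd 67100 := tbD.trs 7 (by decide)
noncomputable def QD : RP := ⟨(nat_lit 67100), (nat_lit 524), (nat_lit 28), (nat_lit 12), (nat_lit 4095), (nat_lit 5), (nat_lit 31)⟩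
theorem low : Low (⊤ : Subgroup Mc3B.G) [0, 1, 23, 42, 2, 275] 2694384000 := levs_low (code := fun k => k) (ok := fun _ => 0) (Q := QD) trsD (fun _ _ => Subgroup.mem_top _) levs _ _ (by decide +kernel)
theorem cd0 : cd 0 = 1 := cdF_zero _
theorem cdx : ∀ x < 15, cd (x + 1) = Mc3B.el x := fun x hx =>
  (cdF_letter (by interval_cases x <;> decide)).trans (slp_succ _ _ _ hx)
noncomputable def eq : List ℕ → List ℕ → ℕ := eqc6 fD 6 63 7 (nat_lit 0) (nat_lit 1) (nat_lit 23) (nat_lit 42) (nat_lit 2) (nat_lit 275)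
end
end CfH6.Mc3D
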