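import Cfsg.Agent.OD.Pre
import Cfsg.Agent.H6.Mc3B
import Cfsg.Agent.H6.TCPart
import Cfsg.Agent.H6.LT15
import Cfsg.Agent.H6.LT16
import Cfsg.Agent.H6.LT17
set_option autoImplicit false
set_option maxRecDepth 100000
set_option linter.all false
namespace CfH6.Mc3O
open CfH6
def s0 : List (List ℕ) := [[0], [1], [2], [3], [4], [5], [6], [7], [8], [9], [10], [11], [12], [13], [14]]
def t0 : List (List ℕ) := [[1], [3], [5], [7], [9], [11], [13]]
theorem cov0 : Covers (gensub (byW Mc3B.el t0) 7) (gensub (byW Mc3B.el s0) 15) 22275 :=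
  cov_step Mc3B.el Mc3B.hinv Mc3B.hrel s0 t0 7 4 (fun ev H => LT15.covers ev H) (by decide +kernel)
theorem top0 : gensub (byW Mc3B.el s0) 15 = ⊤ := (gensub_id Mc3B.el (by decide)).trans Mc3B.htop
theorem covT0 : Covers (gensub (byW Mc3B.el t0) 7) ⊤ 22275 := cov0.top top0
def s1 : List (List ℕ) := [[1], [2], [3], [4], [5], [6], [7], [8], [9], [10], [11], [12], [13], [14]]
def t1 : List (List ℕ) := [[1], [3], [5]]
theorem cov1 : Covers (gensub (byW Mc3B.el t1) 3) (gensub (byW Mc3B.el s1) 14) 1008 :=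
  cov_step Mc3B.el Mc3B.hinv Mc3B.hrel s1 t1 3 4 (fun ev H => LT16.covers ev H) (by decide +kernel)
def s2 : List (List ℕ) := [[1], [2], [3], [4], [5], [6]]
def t2 : List (List ℕ) := []
theorem cov2 : Covers (gensub (byW Mc3B.el t2) 0) (gensub (byW Mc3B.el s2) 6) 120 :=
  cov_step Mc3B.el Mc3B.hinv Mc3B.hrel s2 t2 0 4 (fun ev H => LT17.covers ev H) (by decide +kernel)
theorem finT2 : Finite (gensub (byW Mc3B.el t2) 0) ∧ Nat.card (gensub (byW Mc3B.el t2) 0) ≤ 1 := (gensub_zero _)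
theorem fin2 : Finite (gensub (byW Mc3B.el s2) 6) ∧ Nat.card (gensub (byW Mc3B.el s2) 6) ≤ 120 :=
  fin_cast (cov2.card_le finT2) (by decide)
theorem finT1 : Finite (gensub (byW Mc3B.el t1) 3) ∧ Nat.card (gensub (byW Mc3B.el t1) 3) ≤ 120 := (fin_le (gensub_le_of_subsIn Mc3B.el (by decide)) fin2)
theorem fin1 : Finite (gensub (byW Mc3B.el s1) 14) ∧ Nat.card (gensub (byW Mc3B.el s1) 14) ≤ 120960 :=
  fin_cast (cov1.card_le finT1) (by decide)
theorem finT0 : Finite (gensub (byW Mc3B.el t0) 7) ∧ Nat.card (gensub (byW Mc3B.el t0) 7) ≤ 120960 := (fin_le (gensub_le_of_subsIn Mc3B.el (by decide)) fin1)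
theorem fin0 : Finite (gensub (byW Mc3B.el s0) 15) ∧ Nat.card (gensub (byW Mc3B.el s0) 15) ≤ 2694384000 :=
  fin_cast (cov0.card_le finT0) (by decide)
theorem finG : Finite Mc3B.G ∧ Nat.card Mc3B.G ≤ 2694384000 := fin_top (top0 ▸ fin0)
end CfH6.Mc3O
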