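import Cfsg.Agent.H3.QK0
import Cfsg.Agent.H5.Qs1
import Cfsg.Agent.H6.J4N
import Cfsg.Agent.H6.J4G
import Cfsg.Agent.H6.HNG
import Cfsg.Agent.H6.HSD
import Cfsg.Agent.H6.DK

/-! Rank witnesses for the Harada–Norton group. -/

set_option autoImplicit false
set_option maxRecDepth 100000
open Cfsg Subgroup CfH3.QK CfH6 CfH6.D

namespace CfH6.QsX

theorem r3_HSB : PRankAtLeast 3 2 HSB.G := by
  letI := HSD.actD
  haveI := HSD.fin
  have p3 : ∀ w, HSD.eq (w ++ w ++ w) [] = 0 → evw HSD.cd w ^ 3 = 1 := fun w h => by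
    have := HSD.heq _ _ h
    rwa [evw_append, evw_append, evw_nil, ← sq, ← pow_succ] at this
  have a : ∀ w, evw HSD.cd w • 3 = trW HSD.trD w 3 := fun w => (HSD.trsD.word w (by decide)).1.symm
  have hx := p3 [3, 3] (by decide +kernel)
  refine rank2_of Nat.prime_three hx (p3 [3, 5, 4, 4, 5, 3, 3, 5, 3, 3, 5, 4, 4, 5, 3, 3, 5, 4] (by decide +kernel))
    (fun e => ?_) ?_ fun e => ?_
  · have := a [3, 3]
    rw [e, one_smul] at this
    exact absurd this (by decide +kernel)
  · rw [← evw_append, ← evw_append]; exact HSD.heq _ _ (by decide +kernel)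
  · obtain ⟨n, hn⟩ := (mem_powers_iff_mem_zpowers).2 e
    replace hn : evw HSD.cd [3, 3] ^ n • 3 = _ := congrArg (· • 3) hn
    rw [pow_eq_pow_mod n hx] at hn
    have h3 : n % 3 < 3 := Nat.mod_lt _ (by decide)
    generalize n % 3 = k at hn h3
    interval_cases k
    · rw [pow_zero, one_smul, a] at hn; exact absurd hn (by decide +kernel)
    · rw [pow_one, a, a] at hn; exact absurd hn (by decide +kernel)
    · rw [sq, ← evw_append, a, a] at hn; exact absurd hn (by decide +kernel)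

theorem t_hn {K : Type*} [Group K] [Finite K] (h : Spor.IsoHN K) : T K := by
  haveI := HNG.finG.1
  haveI := HSD.fin
  have i : Function.Injective HNG.ρ.rangeRestrict := ((Nat.bijective_iff_surjective_and_card _).2
    ⟨HNG.ρ.rangeRestrict_surjective, by rw [HNG.range, HNG.index.2, HSD.card]⟩).1
  refine T.equiv h.some (T.of_c (rank_map (Subgroup.subtype _) (subtype_injective _) (rank_map _ i r3_HSB))
    (NS.of_primes fun r hr hd => ?_))
  rw [show Nat.card Spor.HN = _ from HNG.big.1,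
    show 273030912000000 = 2 ^ 14 * 3 ^ 6 * 5 ^ 6 * 7 ^ 1 * 11 ^ 1 * 19 ^ 1 by norm_num] at hd
  have q : ∀ {s t : ℕ}, s.Prime → r ∣ s ^ t → r = s := fun hs h =>
    (Nat.prime_dvd_prime_iff_eq hr hs).1 (hr.dvd_of_dvd_pow h)
  simp only [hr.dvd_mul] at hd
  rcases hd with ((((h | h) | h) | h) | h) | h <;> (rw [q (by norm_num) h]; decide)

theorem t_j4 {K : Type*} [Group K] [Finite K] (h : Spor.IsoJ4 K) : T K :=
  CfH5.QS.tc h (rank_map J4N.ρ J4N.inj CfH5.QS.r3_M24B)
    (CfH5.QS.ns_of J4G.big.1.dvd 21 3 1 1 3 0 0 1 1 1 1 1 0 (by norm_num))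

end CfH6.QsX

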