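import Cfsg.Agent.H3.QK6
import Cfsg.Agent.H7.Qk2
import Cfsg.Agent.H9.Qk2
import Cfsg.Agent.H2.Qk3
import Cfsg.Agent.H2.Qk4
import Cfsg.Agent.H2.Qs
import Cfsg.Agent.H5.Qs2
import Cfsg.Agent.H8.Qs
import Cfsg.Agent.H6.QsX
import Cfsg.Agent.H4.QRu

/-! The rank facts hold for every known simple group. -/

set_option autoImplicit false
open Cfsg CfH3.QK CfH5.QS CfH8.QS CfH7.Qk CfH9.Qk CfH2.Qc CfH6.QsX CfH4.QRu

namespace CfH6.QsG

universe u

theorem known : Known.{u} := by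
  intro K _ _ _ hK h
  refine ⟨?_, CfH2.Qc.sz_card⟩
  rcases h with h | h | h | h | h | h | h | h | h | h | h | h | h | h | h | h | h | h | h | h | h | h | h | h |
    h | h | h | h | h | h | h | h | h | h | h
  · haveI : Fact (Nat.card K).Prime := ⟨h⟩
    haveI := isCyclic_of_prime_card (α := K) rfl
    exact (hK ⟨⟨fun a b => (IsCyclic.commGroup (α := K)).mul_comm a b⟩⟩).elim
  exacts [t_alt hK h, t_psl hK h, t_psp h, t_psu h, t_odd h, t_plus h, t_minus h, t_exc hK h, t_m11 h,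
    t_m12 h, t_m22 h, t_m23 h, t_m24 h, t_j1 hK h, t_j2 h, t_j3 h, t_j4 h, t_co1 h, t_co2 h, t_co3 h,
    t_mcl h, t_hs h, t_suz h, t_he h, t_ru h, t_on h, t_ly h, t_fi22 hK h, t_fi23 hK h, t_fi24 hK h,
    t_hn h, t_th hK h, t_b hK h, t_m hK h]

end CfH6.QsG
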